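import Mathlib
import Cfsg.Agent.Char.SubP
import Cfsg.Agent.Char.ModSl2Char
import Cfsg.Agent.Char.Ito

/-! Brauer's bound for the degree of a faithful character of a group whose Sylow `p`-subgroup has
order `p` and is not normal. -/

set_option autoImplicit false
set_option linter.unusedSectionVars false

namespace Cfsg.Agent.CTL

open Subgroup Cfsg.Agent.Char Cfsg.Agent.Block Cfsg.Agent.Char.SubP
open scoped ComplexConjugate

variable {G : Type*} [Group G] [Finite G] {p : ℕ} [hp : Fact p.Prime] {x : G}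

local notation "𝐏" => zpowers x
local notation "𝐂" => centralizer ((zpowers x : Subgroup G) : Set G)
local notation "𝐍" => normalizer ((zpowers x : Subgroup G) : Set G)

theorem re_le_of_char {H : Type*} [Group H] [Finite H] {η : H → ℂ} (hη : IsCharacter H η) (y : H) :
    (η y).re ≤ (η 1).re := by
  obtain ⟨n, hn⟩ := hη.exists_nat_one
  have := isCharacter_norm_le hη y
  rw [hn] at this ⊢
  exact (Complex.re_le_norm _).trans (by simpa using this)

theorem eq_of_re_ge {H : Type*} [Group H] [Finite H] {η : H → ℂ} (hη : IsCharacter H η) {y : H}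
    (h : (η 1).re ≤ (η y).re) : η y = η 1 := by
  obtain ⟨n, hn⟩ := hη.exists_nat_one
  have h1 := isCharacter_norm_le hη y
  rw [hn] at h1 h ⊢
  simp only [Complex.norm_natCast, Complex.natCast_re] at h1 h
  have h2 := Complex.re_le_norm (η y)
  have h3 : (η y).re = ‖η y‖ := by linarith
  have h4 := Complex.eq_coe_norm_of_nonneg (z := η y) (Complex.re_eq_norm.1 h3)
  rw [h4, show ‖η y‖ = n by linarith]; simp

/-- The trace of an element of `C(P)` on an eigenspace of `P` is at most its dimension. -/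
theorem re_sum_le [Fintype 𝐏] {φ : G → ℂ} (hφ : IsCharacter G φ) (μ : 𝐏 →* ℂˣ) {y : G}
    (hy : y ∈ 𝐂) : (∑ u : 𝐏, (μ u : ℂ) * φ (u * y)).re ≤ (∑ u : 𝐏, (μ u : ℂ) * φ u).re := by
  let i : 𝐏 →* 𝐂 := inclusion P_le_C
  have key : ∀ η : 𝐂 → ℂ, IsCharacter 𝐂 η →
      (∑ u : 𝐏, (μ u : ℂ) * η (i u * ⟨y, hy⟩)).re ≤ (∑ u : 𝐏, (μ u : ℂ) * η (i u)).re := by
    intro η hη
    refine hη.induction_on (by simp) fun α β hα _ ih => ?_
    simp only [Pi.add_apply, mul_add, Finset.sum_add_distrib, Complex.add_re]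
    refine add_le_add ?_ ih
    obtain ⟨d, hd0, hd⟩ := hα.exists_nat_one
    obtain ⟨a, ha⟩ := exists_nat_sum ((isCharacter_hom μ).mul (hα.isCharacter.comp i))
    have hd' : (d : ℂ) ≠ 0 := Nat.cast_ne_zero.2 hd0.ne'
    have h1 : ∀ u : 𝐏, α (i u * ⟨y, hy⟩) = α (i u) * (α ⟨y, hy⟩ / d) := fun u => by
      obtain ⟨ω, -, hω⟩ := (isCharacter_norm_eq_iff hα.isCharacter (i u)).1
        (norm_eq_of_mem_center hα (mem_center_iff.2 fun g => Subtype.ext (g.2 u u.2).symm))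
      have h2 := hω 1
      rw [mul_one, hd] at h2
      rw [hω, h2]; field_simp
    simp only [h1, ← mul_assoc, ← Finset.sum_mul]
    have ha' : ∑ u : 𝐏, (μ u : ℂ) * α (i u) = (Nat.card 𝐏 * a : ℕ) := by push_cast; exact ha
    rw [ha']
    have h3 := re_le_of_char hα.isCharacter ⟨y, hy⟩
    rw [hd, Complex.natCast_re] at h3
    have h4 : (α ⟨y, hy⟩ / d).re ≤ 1 := by
      rw [Complex.div_natCast_re, div_le_one (by exact_mod_cast hd0)]; exact h3
    rw [Complex.natCast_re, ← Complex.ofReal_natCast, Complex.re_ofReal_mul]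
    exact mul_le_of_le_one_right (Nat.cast_nonneg _) h4
  exact key _ (hφ.restrict 𝐂)

/-- The two shapes of an irreducible character on the `p`-singular elements of `C(P)`. -/
theorem two_shapes (hx : orderOf x = p) (hG : ¬ p ^ 2 ∣ Nat.card G) {χ : G → ℂ}
    (hχ : IsIrrCharacter G χ) [Fintype 𝐍] [Fintype 𝐏] {d F : ℕ} (hd : χ 1 = d)
    (hF : ∑ u : 𝐏, χ u = p * F) :
    (∃ m : ℕ, d = F + (p - 1) * m ∧ (χ x ≠ χ 1 → m ≠ 0) ∧
      ((∀ y ∈ 𝐂, ¬ p ∣ orderOf y → (∑ u : 𝐏, χ u).re ≤ (∑ u : 𝐏, χ (u * y)).re) → F ≤ m + 1)) ∨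
    ∃ (L : 𝐏 →* ℂˣ) (θ : G → ℂ) (f : ℕ), L ≠ 1 ∧ IsIrrCharacter 𝐂 (fun y => θ y) ∧ θ 1 = f ∧
      0 < f ∧ ((d + f * (𝐂).relIndex 𝐍 = p * F ∧ f ≤ F) ∨
        (d = p * F + f * (𝐂).relIndex 𝐍 ∧ ∀ u : 𝐏, u ≠ 1 → ∀ y ∈ 𝐂, ¬ p ∣ orderOf y →
          (Nat.card 𝐂 : ℂ) * χ (u * y) = ∑ n : 𝐍, (cjh L n u : ℂ) * θ (n * y * (n : G)⁻¹))) := by
  classical
  have := Fintype.ofFinite G
  have hP : Nat.card 𝐏 = p := by rw [Nat.card_zpowers, hx]
  have hx1 : x ≠ 1 := fun h => hp.out.one_lt.ne' (by rw [← hx, h, orderOf_one])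
  have hp0 : (p : ℂ) ≠ 0 := Nat.cast_ne_zero.2 hp.out.ne_zero
  have hC0 : (Nat.card 𝐂 : ℂ) ≠ 0 := Nat.cast_ne_zero.2 Nat.card_pos.ne'
  have h1 : ¬ p ∣ orderOf (1 : G) := not_dvd_orderOf_one
  have hw := Complex.isPrimitiveRoot_exp p hp.out.ne_zero
  obtain ⟨μ, hμ⟩ := SelfC.exists_lin hx hw.pow_eq_one
  have hμ1 : μ ≠ 1 := fun h1 => hw.ne_one hp.out.one_lt (by rw [← hμ, h1]; rfl)
  -- the constant case
  have hsum : ∀ y : G, (∀ u ∈ 𝐏, u ≠ 1 → χ (u * y) = χ (x * y)) →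
      (p : ℂ) * χ (x * y) = ∑ u : 𝐏, χ (u * y) - ∑ u : 𝐏, (μ u : ℂ) * χ (u * y) := fun y h => by
    have h2 : ∀ u : 𝐏, χ (u * y) - (μ u : ℂ) * χ (u * y) = (1 - μ u) * χ (x * y) := fun u => by
      by_cases hu : u = 1
      · simp [hu]
      · rw [h u u.2 fun h3 => hu (Subtype.ext h3)]; ring
    rw [← Finset.sum_sub_distrib]
    simp only [h2, ← Finset.sum_mul, Finset.sum_sub_distrib, sum_hom_eq_zero μ hμ1]
    simp [← Nat.card_eq_fintype_card, hx]
  have hconst : (∀ y ∈ 𝐂, ¬ p ∣ orderOf y → ∀ u ∈ 𝐏, u ≠ 1 → χ (u * y) = χ (x * y)) →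
      ((∀ y ∈ 𝐂, ¬ p ∣ orderOf y → (χ x).re ≤ (χ (x * y)).re) → (χ x).re ≤ 1) →
      ∃ m : ℕ, d = F + (p - 1) * m ∧ (χ x ≠ χ 1 → m ≠ 0) ∧
      ((∀ y ∈ 𝐂, ¬ p ∣ orderOf y → (∑ u : 𝐏, χ u).re ≤ (∑ u : 𝐏, χ (u * y)).re) →
        F ≤ m + 1) := fun h h' => by
    obtain ⟨m, hm⟩ := exists_nat_sum ((isCharacter_hom μ).mul (hχ.isCharacter.restrict 𝐏))
    rw [hP] at hm
    have hm' : ∑ u : 𝐏, (μ u : ℂ) * χ u = p * m := hm
    have h2 := hsum 1 (h 1 (one_mem _) h1)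
    simp only [mul_one] at h2
    rw [hF, hm'] at h2
    have h3 : χ x = F - m := mul_left_cancel₀ hp0 (by rw [h2]; ring)
    have h4 := SelfC.sum_subgroup_eq (P := 𝐏) (f := χ) (c := χ x)
      fun u hu hu1 => by simpa using h 1 (one_mem _) h1 u hu hu1
    rw [hF, hP, hd, h3] at h4
    have h5 : d = F + (p - 1) * m := by
      have : (d : ℂ) = (F + (p - 1) * m : ℕ) := by
        push_cast [Nat.cast_sub hp.out.one_le]; linear_combination -h4
      exact_mod_cast this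
    refine ⟨m, h5, fun h6 h7 => h6 (by rw [h3, hd, h5, h7]; simp), fun h6 => ?_⟩
    have h7 := h' fun y hy hy' => by
      have h8 := congrArg Complex.re (hsum y (h y hy hy'))
      have h9 := re_sum_le hχ.isCharacter μ hy
      have h10 := h6 y hy hy'
      rw [hm'] at h9
      rw [hF] at h10
      rw [h3]
      simp only [Complex.sub_re, Complex.mul_re, Complex.natCast_re, Complex.natCast_im, zero_mul,
        sub_zero, mul_zero] at h8 h9 h10 ⊢
      have : (0 : ℝ) < p := Nat.cast_pos.2 hp.out.pos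
      nlinarith
    rw [h3] at h7
    simp only [Complex.sub_re, Complex.natCast_re] at h7
    have : (F : ℝ) ≤ (m + 1 : ℕ) := by push_cast; linarith
    exact_mod_cast this
  rcases values_of_cyclic_ti (p := p) (P := 𝐏) (IsPGroup.of_card (n := 1) (by rw [hP, pow_one]))
    (fun h => hG (by rw [← (𝐏).card_mul_index, hP, pow_two]; exact Nat.mul_dvd_mul_left p h))
    inferInstance (fun u hu hu1 => by
      have : Fact (Nat.card 𝐏).Prime := hP ▸ hp
      have h2 : zpowers u = 𝐏 := by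
        rcases ((zpowers u).subgroupOf 𝐏).eq_bot_or_eq_top_of_prime_card with h | h
        · have h3 : (⟨u, hu⟩ : 𝐏) ∈ (zpowers u).subgroupOf 𝐏 := mem_zpowers u
          rw [h, mem_bot] at h3
          exact absurd (congrArg Subtype.val h3) hu1
        · exact le_antisymm (zpowers_le.2 hu) (subgroupOf_eq_top.1 h)
      rw [← h2, zpowers_eq_closure, centralizer_closure]) ⟨χ, hχ⟩ with
    h | ⟨θ, δ, hθ, hθP, hδ, h | ⟨lam, hm, hl1, ⟨a, ha, hla⟩, h⟩⟩
  · refine Or.inl (hconst (fun y hy hy' u hu hu1 => ?_) fun _ => ?_)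
    · exact (h u hu hu1 y hy hy').trans (h x (mem_zpowers x) hx1 y hy hy').symm
    · have h2 : χ x = 0 := by simpa using h x (mem_zpowers x) hx1 1 (one_mem _) h1
      simp [h2]
  · set s := Nat.card {n : 𝐍 // ∀ z ∈ 𝐂, θ (n * z * n⁻¹) = θ z} with hs
    have hs0 : 0 < s := by
      have : Nonempty {n : 𝐍 // ∀ z ∈ 𝐂, θ (n * z * n⁻¹) = θ z} := ⟨⟨1, by simp⟩⟩
      exact Nat.card_pos
    have h0 : (s : ℂ) ≠ 0 := Nat.cast_ne_zero.2 hs0.ne'
    refine Or.inl (hconst (fun y hy hy' u hu hu1 => mul_left_cancel₀ h0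
      ((h u hu hu1 y hy hy').trans (h x (mem_zpowers x) hx1 y hy hy').symm)) fun h2 => ?_)
    obtain ⟨f, hf0, hf⟩ := hθ.exists_nat_one
    have hf' : θ 1 = f := hf
    have h3 : ∀ y ∈ 𝐂, ¬ p ∣ orderOf y →
        (s : ℂ) * χ (x * y) = δ * ∑ n : 𝐍, θ (n * y * (n : G)⁻¹) := fun y hy hy' => by
      rw [← finsum_eq_sum_of_fintype]
      exact h x (mem_zpowers x) hx1 y hy hy'
    have h4 := h3 1 (one_mem _) h1
    simp only [mul_one, mul_inv_cancel, hf', Finset.sum_const, Finset.card_univ, nsmul_eq_mul] at h4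
    have hs' : (0 : ℝ) < s := Nat.cast_pos.2 hs0
    have h5 := congrArg Complex.re h4
    simp only [Complex.mul_re, Complex.natCast_re, Complex.natCast_im, zero_mul, sub_zero,
      Complex.intCast_re, Complex.intCast_im, mul_zero] at h5
    rcases hδ with rfl | rfl
    swap
    · have : (0 : ℝ) ≤ Fintype.card 𝐍 * f := by positivity
      push_cast at h5
      nlinarith
    have hcj : ∀ (n : 𝐍) {y : G}, y ∈ 𝐂 → (n : G) * y * (n : G)⁻¹ ∈ 𝐂 := fun n y hy =>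
      (mem_normalizer_iff.1 (Alg.normalizer_le_normalizer_centralizer 𝐏 n.2) y).1 hy
    have h6 : ∀ y ∈ 𝐂, ¬ p ∣ orderOf y → θ y = θ 1 := fun y hy hy' => by
      have h7 := congrArg Complex.re (h3 y hy hy')
      have h8 := h2 y hy hy'
      simp only [Complex.mul_re, Complex.natCast_re, Complex.natCast_im, zero_mul, sub_zero,
        Int.cast_one, one_mul, Complex.re_sum] at h7 h5
      have h9 : ∀ n : 𝐍, (θ (n * y * (n : G)⁻¹)).re ≤ f := fun n => by
        have := re_le_of_char hθ.isCharacter ⟨_, hcj n hy⟩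
        rwa [hf, Complex.natCast_re] at this
      have h10 : ∑ n : 𝐍, (θ (n * y * (n : G)⁻¹)).re = ∑ n : 𝐍, (f : ℝ) :=
        le_antisymm (Finset.sum_le_sum fun n _ => h9 n) (by
          rw [Finset.sum_const, Finset.card_univ, nsmul_eq_mul, ← h5, ← h7]
          exact mul_le_mul_of_nonneg_left h8 hs'.le)
      have h11 := (Finset.sum_eq_sum_iff_of_le fun n _ => h9 n).1 h10 1 (Finset.mem_univ _)
      refine eq_of_re_ge hθ.isCharacter (y := ⟨y, hy⟩) ?_
      rw [hf, Complex.natCast_re, ← h11]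
      simp
    have h7 : ∀ y : 𝐂, θ y = f := fun y => by
      have h8 : (⟨pPart p (y : G), pPart_mem y.2⟩ : 𝐂) ∈ charKer fun y : 𝐂 => θ y :=
        (mem_charKer_iff hθ.isCharacter).2 (hθP _ (ModSl2.le_zpowers_of_normalizer hx hG
          (isPGroup_zpowers_pPart p (y : G)) (Or.inl (zpowers_le.2 (centralizer_le_normalizer _
            (pPart_mem y.2)))) (mem_zpowers _)))
      have h9 := h8 ⟨pReg p (y : G), pReg_mem y.2⟩
      simp only [MulMemClass.mk_mul_mk, pPart_mul_pReg] at h9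
      rw [h9, h6 _ (pReg_mem y.2) (not_dvd_orderOf_pReg p _), hf']
    have h8 : f = 1 := by
      have := Fintype.ofFinite 𝐂
      have h9 := hθ.inner_self
      rw [classInner_def] at h9
      simp only [h7, Finset.sum_const, Finset.card_univ, nsmul_eq_mul, map_natCast,
        ← Nat.card_eq_fintype_card] at h9
      rw [inv_mul_cancel_left₀ hC0] at h9
      exact Nat.eq_one_of_mul_eq_one_left (by exact_mod_cast h9)
    have h9 : s = Fintype.card 𝐍 := by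
      rw [hs, ← Nat.card_eq_fintype_card]
      exact Nat.card_congr (Equiv.subtypeUnivEquiv fun n z hz =>
        (h7 ⟨_, hcj n hz⟩).trans (h7 ⟨z, hz⟩).symm)
    rw [h8, ← h9] at h5
    push_cast at h5
    nlinarith
  right
  let L' : 𝐏 →* ℂ := ⟨⟨fun u => lam u, hl1⟩, fun u v => hm u u.2 v v.2⟩
  let L : 𝐏 →* ℂˣ := L'.toHomUnits
  have hL : L ≠ 1 := fun h2 => hla (show ((L ⟨a, ha⟩ : ℂˣ) : ℂ) = 1 by rw [h2]; rfl)
  obtain ⟨f, hf0, hf⟩ := hθ.exists_nat_one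
  have hf' : θ 1 = f := hf
  have hv : ∀ u : 𝐏, u ≠ 1 → ∀ y ∈ 𝐂, ¬ p ∣ orderOf y → (Nat.card 𝐂 : ℂ) * χ (u * y) =
      δ * ∑ n : 𝐍, (cjh L n u : ℂ) * θ (n * y * (n : G)⁻¹) := fun u hu y hy hy' => by
    rw [← finsum_eq_sum_of_fintype]
    exact h u u.2 (fun h2 => hu (Subtype.ext h2)) y hy hy'
  have hv1 : ∀ u : 𝐏, u ≠ 1 → (Nat.card 𝐂 : ℂ) * χ u = δ * f * ∑ n : 𝐍, (cjh L n u : ℂ) :=
    fun u hu => by
      have h2 := hv u hu 1 (one_mem _) h1
      simp only [mul_one, mul_inv_cancel, hf', ← Finset.sum_mul] at h2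
      rw [h2]; ring
  set E := (𝐂).relIndex 𝐍 with hE
  have hN : (Fintype.card 𝐍 : ℂ) = Nat.card 𝐂 * E := by
    rw [← Nat.card_eq_fintype_card, card_N]; push_cast; rfl
  have hall : ∀ u : 𝐏, (Nat.card 𝐂 : ℂ) * χ u = δ * f * ∑ n : 𝐍, (cjh L n u : ℂ) +
      if u = 1 then (Nat.card 𝐂 : ℂ) * (d - δ * f * E) else 0 := fun u => by
    split_ifs with hu
    · simp only [hu, OneMemClass.coe_one, hd, map_one, Units.val_one, Finset.sum_const,
        Finset.card_univ, nsmul_eq_mul, hN]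
      ring
    · rw [hv1 u hu, add_zero]
  obtain ⟨a₁, ha₁⟩ := exists_nat_sum ((isCharacter_hom L⁻¹).mul (hχ.isCharacter.restrict 𝐏))
  rw [hP] at ha₁
  have h2 : (d : ℂ) - δ * f * E = p * F := by
    apply mul_left_cancel₀ hC0
    rw [← hF, Finset.mul_sum]
    simp only [hall, Finset.sum_add_distrib, ← Finset.mul_sum]
    rw [Finset.sum_comm, Finset.sum_eq_zero fun n _ => sum_hom_eq_zero _ (cjh_ne_one hL n)]
    simp
  have hsum : ∑ n : 𝐍, (if (n : G) ∈ 𝐂 then (p : ℂ) else 0) = Nat.card 𝐂 * p := by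
    rw [← Finset.sum_filter, Finset.sum_const, card_filter_C, nsmul_eq_mul]
  have h3 : δ * f * (p : ℂ) + (d - δ * f * E) = p * a₁ := by
    apply mul_left_cancel₀ hC0
    rw [← ha₁, Finset.mul_sum]
    have h4 : ∀ u : 𝐏, (Nat.card 𝐂 : ℂ) * ((fun g => ((L⁻¹ g : ℂˣ) : ℂ)) * fun u : 𝐏 => χ u) u =
        δ * f * ∑ n : 𝐍, ((L⁻¹ u : ℂˣ) : ℂ) * (cjh L n u : ℂ) +
          if u = 1 then (Nat.card 𝐂 : ℂ) * (d - δ * f * E) else 0 := fun u => by
      rw [Pi.mul_apply, mul_left_comm, hall, ← Finset.mul_sum]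
      split_ifs with hu
      · simp [hu]
      · ring
    rw [Finset.sum_congr rfl fun u _ => h4 u, Finset.sum_add_distrib, ← Finset.mul_sum,
      Finset.sum_comm]
    simp only [sum_inv_cjh hx hL, hsum]
    simp [mul_add]
    ring
  refine ⟨L, θ, f, hL, hθ, hf', hf0, ?_⟩
  rcases hδ with rfl | rfl
  · refine Or.inr ⟨?_, fun u hu y hy hy' => by simpa using hv u hu y hy hy'⟩
    have : (d : ℂ) = (p * F + f * E : ℕ) := by push_cast at h2 ⊢; linear_combination h2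
    exact_mod_cast this
  · refine Or.inl ⟨?_, ?_⟩
    · have : ((d + f * E : ℕ) : ℂ) = (p * F : ℕ) := by push_cast at h2 ⊢; linear_combination h2
      exact_mod_cast this
    · have : ((F : ℕ) : ℂ) = (a₁ + f : ℕ) := by
        apply mul_left_cancel₀ hp0
        push_cast at h2 h3 ⊢; linear_combination h3 - h2
      have : F = a₁ + f := by exact_mod_cast this
      omega

theorem relIndex_dvd (hx : orderOf x = p) : (𝐂).relIndex 𝐍 ∣ p - 1 :=
  (CycL.exists_gen (T := 𝐍) (by rw [Nat.card_zpowers, hx]) le_rfl).choose_spec.2.2.2.2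

theorem eq_const (hM : normalClosure {x} = ⊤) {ζ : G → ℂ} (hζ : IsCharacter G ζ)
    (h : ζ x = ζ 1) (g : G) : ζ g = ζ 1 := by
  have := charKer_normal hζ.isClassFunction
  exact (mem_charKer_iff hζ).1 (hM.ge.trans (normalClosure_le_normal (N := charKer ζ)
    (Set.singleton_subset_iff.2 ((mem_charKer_iff hζ).2 h))) (mem_top g))

theorem exists_F (hx : orderOf x = p) [Fintype 𝐏] {φ : G → ℂ} (hφ : IsCharacter G φ) :
    ∃ F : ℕ, ∑ u : 𝐏, φ u = p * F := by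
  obtain ⟨F, hF⟩ := exists_nat_sum (hφ.restrict 𝐏)
  exact ⟨F, by rw [hF, Nat.card_zpowers, hx]⟩

/-- Bounds for the dimension of the fixed space of `P`. -/
theorem fix_bound (hx : orderOf x = p) (hG : ¬ p ^ 2 ∣ Nat.card G) (hM : normalClosure {x} = ⊤)
    (hE : 2 * (𝐂).relIndex 𝐍 < p) [Fintype G] [Fintype 𝐏] {φ : G → ℂ} (hφ : IsCharacter G φ) :
    ∀ D F : ℕ, φ 1 = D → ∑ u : 𝐏, φ u = p * F → ∑ g, φ g = 0 →
      F ≤ D ∧ (0 < F → F + p ≤ D + 1 + (𝐂).relIndex 𝐍) ∧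
      ((∀ y ∈ 𝐂, ¬ p ∣ orderOf y → (∑ u : 𝐏, φ u).re ≤ (∑ u : 𝐏, φ (u * y)).re) →
        (p + 1) * F ≤ 2 * D) := by
  have := Fintype.ofFinite 𝐍
  have hp0 : (p : ℂ) ≠ 0 := Nat.cast_ne_zero.2 hp.out.ne_zero
  refine hφ.induction_on (fun D F _ h _ => ?_) fun ζ ψ hζ hψ ih D F hD hF h0 => ?_
  · have : F = 0 := by simpa [hp.out.ne_zero] using h
    simp [this]
  obtain ⟨d, hd0, hd⟩ := hζ.exists_nat_one
  obtain ⟨D', hD'⟩ := hψ.exists_nat_one
  obtain ⟨F₁, hF₁⟩ := exists_F hx hζ.isCharacter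
  obtain ⟨F₂, hF₂⟩ := exists_F hx hψ
  obtain ⟨a, ha⟩ := exists_nat_sum hζ.isCharacter
  obtain ⟨b, hb⟩ := exists_nat_sum hψ
  simp only [Pi.add_apply, Finset.sum_add_distrib] at hD hF h0 ⊢
  obtain rfl : D = d + D' := by rw [hd, hD'] at hD; exact_mod_cast hD.symm
  obtain rfl : F = F₁ + F₂ := by
    rw [hF₁, hF₂, ← mul_add] at hF; exact_mod_cast (mul_left_cancel₀ hp0 hF).symm
  have hab : a = 0 ∧ b = 0 := by
    rw [ha, hb, ← mul_add, mul_eq_zero, Nat.cast_eq_zero, ← Nat.cast_add, Nat.cast_eq_zero] at h0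
    have := Nat.card_pos (α := G)
    omega
  obtain ⟨h1, h2, h3⟩ := ih D' F₂ hD' hF₂ (by simp [hb, hab.2])
  have hk : ζ x ≠ ζ 1 := fun h => by
    simp only [eq_const hM hζ.isCharacter h, hd, hab.1, Finset.sum_const, Finset.card_univ,
      nsmul_eq_mul, Nat.cast_zero, mul_zero, mul_eq_zero, Nat.cast_eq_zero] at ha
    have := Fintype.card_pos (α := G)
    omega
  have hle : ∀ {η : G → ℂ}, IsCharacter G η → ∀ y ∈ 𝐂,
      (∑ u : 𝐏, η (u * y)).re ≤ (∑ u : 𝐏, η u).re := fun hη y hy => by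
    simpa using re_sum_le hη 1 hy
  have key : F₁ ≤ d ∧ (0 < F₁ → F₁ + p ≤ d + 1 + (𝐂).relIndex 𝐍) ∧
      ((∀ y ∈ 𝐂, ¬ p ∣ orderOf y → (∑ u : 𝐏, ζ u).re ≤ (∑ u : 𝐏, ζ (u * y)).re) →
        (p + 1) * F₁ ≤ 2 * d) := by
    generalize hE' : (𝐂).relIndex 𝐍 = E at hE
    obtain ⟨q, rfl⟩ : ∃ q, p = q + 1 := ⟨p - 1, by have := hp.out.pos; omega⟩
    rcases two_shapes hx hG hζ hd hF₁ with ⟨m, h4, h5, h6⟩ | ⟨L, θ, f, -, -, -, -, ⟨h4, h5⟩ | ⟨h4, -⟩⟩
    · have h7 := Nat.pos_of_ne_zero (h5 hk)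
      rw [Nat.add_sub_cancel] at h4
      refine ⟨by omega, fun _ => by nlinarith, fun h => ?_⟩
      have h8 := h6 h
      have h9 : q * F₁ ≤ q * (2 * m) := Nat.mul_le_mul_left _ (by omega)
      nlinarith
    · rw [hE'] at h4
      have h6 : f * E ≤ F₁ * E := Nat.mul_le_mul_right _ h5
      have h7 : F₁ * (2 * E) ≤ F₁ * q := Nat.mul_le_mul_left _ (by omega)
      refine ⟨by nlinarith, fun h => ?_, fun _ => by nlinarith⟩
      obtain ⟨k, rfl⟩ : ∃ k, F₁ = k + 1 := ⟨F₁ - 1, by omega⟩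
      have h8 : k * (2 * E) ≤ k * q := Nat.mul_le_mul_left _ (by omega)
      nlinarith
    · rw [hE'] at h4
      exact ⟨by nlinarith, fun _ => by nlinarith, fun _ => by nlinarith⟩
  obtain ⟨k1, k2, k3⟩ := key
  refine ⟨by omega, fun h => by omega, fun h => ?_⟩
  have h4 := k3 fun y hy hy' => by
    have := h y hy hy'
    have := hle hψ y hy
    simp only [Complex.add_re] at *
    linarith
  have h5 := h3 fun y hy hy' => by
    have := h y hy hy'
    have := hle hζ.isCharacter y hy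
    simp only [Complex.add_re] at *
    linarith
  nlinarith

/-- The numerical condition replacing commutativity of `C(P)`. -/
def Sm (p d : ℕ) : Prop := ∀ f ≤ d, ∀ e ≤ d, d = f * e → 2 ≤ f → 2 ≤ e → f ^ 2 * e ^ 2 + e + 1 < p + f ^ 2 * e

instance (p d : ℕ) : Decidable (Sm p d) := by unfold Sm; infer_instance

theorem sum_cjh_conj (hx : orderOf x = p) [Fintype 𝐏] {L : 𝐏 →* ℂˣ} (hL : L ≠ 1) (m n : 𝐍)
    [Decidable ((m : G) ∈ 𝐂)] :
    ∑ u : 𝐏, (cjh L (m * n) u : ℂ) * conj (cjh L n u : ℂ) = if (m : G) ∈ 𝐂 then (p : ℂ) else 0 := by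
  rw [← sum_inv_cjh hx hL m]
  refine Fintype.sum_equiv ((zpowers x).normalizerMonoidHom n).toEquiv _ _ fun u => ?_
  have h1 : conj (cjh L n u : ℂ) = ((cjh L n u : ℂˣ) : ℂ)⁻¹ :=
    (Complex.inv_eq_conj (norm_hom _ _)).symm
  rw [h1, mul_comm]
  simp [cjh]

/-- Brauer's theorem, irreducible case. -/
theorem brauer_irr (hx : orderOf x = p) (hG : ¬ p ^ 2 ∣ Nat.card G) (hM : normalClosure {x} = ⊤)
    {ψ : G → ℂ} (hψ : IsIrrCharacter G ψ) {d : ℕ} (hd : ψ 1 = d) (hdp : 2 * d + 1 < p)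
    (h : (∀ a ∈ 𝐂, ∀ b ∈ 𝐂, a * b = b * a) ∨ Sm p d) : ψ x = ψ 1 ∨ 𝐍 ≤ 𝐂 := by
  classical
  have := Fintype.ofFinite G
  have := Fintype.ofFinite 𝐍
  have := Fintype.ofFinite 𝐏
  by_contra hcon
  obtain ⟨hk, hNC⟩ := not_or.1 hcon
  have hP : Nat.card 𝐏 = p := by rw [Nat.card_zpowers, hx]
  have hC0 : (Nat.card 𝐂 : ℂ) ≠ 0 := Nat.cast_ne_zero.2 Nat.card_pos.ne'
  have hEd := relIndex_dvd hx
  have hE1 : (𝐂).relIndex 𝐍 ≠ 1 := fun h => hNC (relIndex_eq_one.1 h)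
  have hN : (Fintype.card 𝐍 : ℂ) = Nat.card 𝐂 * (𝐂).relIndex 𝐍 := by
    rw [← Nat.card_eq_fintype_card, card_N]; push_cast; rfl
  obtain ⟨F, hF⟩ := exists_F hx hψ.isCharacter
  have hE0 : (𝐂).relIndex 𝐍 ≠ 0 := fun h => by rw [h, zero_dvd_iff] at hEd; omega
  rcases two_shapes hx hG hψ hd hF with ⟨m, h4, h5, -⟩ | ⟨L, θ, f, hL, hθ, hf, hf0, ⟨h4, h5⟩ | ⟨h4, hv⟩⟩
  · have := Nat.le_mul_of_pos_right (p - 1) (Nat.pos_of_ne_zero (h5 hk))
    omega
  · generalize (𝐂).relIndex 𝐍 = E at *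
    obtain ⟨k, hk'⟩ := hEd
    have h6 : f * E ≤ F * E := Nat.mul_le_mul_right _ h5
    obtain ⟨q, rfl⟩ : ∃ q, p = q + 1 := ⟨p - 1, by omega⟩
    rw [Nat.add_sub_cancel] at hk'
    rcases Nat.lt_or_ge k 2 with h7 | h7
    · have h8 : k = 1 := by interval_cases k <;> omega
      subst h8
      rw [mul_one] at hk'
      subst hk'
      rcases h5.eq_or_lt with rfl | h9
      · refine hk (eq_one_of_sum (hψ.isCharacter.restrict 𝐏) ?_ ⟨x, mem_zpowers x⟩)
        have : d = f := by nlinarith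
        rw [hF, hP]; simp [hd, this]
      · have : (f + 1) * q ≤ F * q := Nat.mul_le_mul_right _ h9
        nlinarith
    · have h8 : E * 2 ≤ q := hk' ▸ Nat.mul_le_mul_left E h7
      have h9 : F * (E * 2) ≤ F * q := Nat.mul_le_mul_left _ h8
      have h10 : 1 * (q + 2) ≤ F * (q + 2) := Nat.mul_le_mul_right _ (by omega)
      nlinarith
  have hF0 : F = 0 := by
    by_contra h5
    have := Nat.le_mul_of_pos_right p (Nat.pos_of_ne_zero h5)
    omega
  subst hF0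
  rw [mul_zero, zero_add] at h4
  have hv' : ∀ u : 𝐏, ∀ y ∈ 𝐂, ¬ p ∣ orderOf y →
      (Nat.card 𝐂 : ℂ) * ψ (u * y) = ∑ n : 𝐍, (cjh L n u : ℂ) * θ (n * y * (n : G)⁻¹) := by
    intro u y hy hy'
    by_cases hu : u ≠ 1
    · exact hv u hu y hy hy'
    rw [not_not.1 hu]
    have h5 := twisted_sum_eq_zero hψ.isCharacter 𝐏 1 (by simpa using hF) y
    have h6 : ∑ u : 𝐏, ((Nat.card 𝐂 : ℂ) * ψ (u * y) -
        ∑ n : 𝐍, (cjh L n u : ℂ) * θ (n * y * (n : G)⁻¹)) = 0 := by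
      rw [Finset.sum_sub_distrib, ← Finset.mul_sum, Finset.sum_comm]
      simp only [← Finset.sum_mul, sum_hom_eq_zero _ (cjh_ne_one hL _)]
      simpa [hC0] using h5
    rw [Finset.sum_eq_single 1 (fun u _ hu => sub_eq_zero.2 (hv u hu y hy hy')) (by simp)] at h6
    exact sub_eq_zero.1 h6
  have hcj : ∀ (n : 𝐍) {y : G}, y ∈ 𝐂 → (n : G) * y * (n : G)⁻¹ ∈ 𝐂 := fun n y hy =>
    (mem_normalizer_iff.1 (Alg.normalizer_le_normalizer_centralizer 𝐏 n.2) y).1 hy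
  have hS : ∀ y ∈ 𝐂, ¬ p ∣ orderOf y → (Nat.card 𝐂 : ℂ) * ∑ u : 𝐏, ψ (u * y) * conj (ψ (u * y)) =
      p * ∑ n : 𝐍, θ (n * y * (n : G)⁻¹) * conj (θ (n * y * (n : G)⁻¹)) := fun y hy hy' => by
    apply mul_left_cancel₀ hC0
    have h5 : ∀ u : 𝐏, (Nat.card 𝐂 : ℂ) * (Nat.card 𝐂 * (ψ (u * y) * conj (ψ (u * y)))) =
        ∑ n : 𝐍, ∑ m : 𝐍, ((cjh L (m * n) u : ℂ) * conj (cjh L n u : ℂ)) *
          (θ ((m * n : 𝐍) * y * ((m * n : 𝐍) : G)⁻¹) * conj (θ (n * y * (n : G)⁻¹))) := fun u => by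
      have h6 := congrArg conj (hv' u y hy hy')
      rw [map_mul, map_natCast, map_sum] at h6
      rw [mul_left_comm, ← mul_assoc _ (ψ _), hv' u y hy hy', mul_left_comm, h6, Finset.mul_sum]
      refine Finset.sum_congr rfl fun n _ => ?_
      rw [Finset.sum_mul, ← Equiv.sum_comp (Equiv.mulRight n)]
      refine Finset.sum_congr rfl fun m _ => ?_
      simp only [Equiv.coe_mulRight, map_mul]
      ring
    simp only [Finset.mul_sum, h5]
    rw [Finset.sum_comm]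
    refine Finset.sum_congr rfl fun n _ => ?_
    rw [Finset.sum_comm]
    simp only [← Finset.sum_mul, sum_cjh_conj hx hL]
    rw [Finset.sum_congr rfl (g := fun m : 𝐍 => if (m : G) ∈ 𝐂 then (p : ℂ) *
      (θ (n * y * (n : G)⁻¹) * conj (θ (n * y * (n : G)⁻¹))) else 0) fun m _ => ?_,
      ← Finset.sum_filter, Finset.sum_const, card_filter_C, nsmul_eq_mul]
    split_ifs with hm
    · congr 2
      refine Eq.trans ?_ (hθ.isClassFunction ⟨_, hcj n hy⟩ ⟨m, hm⟩)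
      simp [mul_assoc]
    · simp
  set E := (𝐂).relIndex 𝐍 with hE
  have hΦ := (hψ.isCharacter.mul hψ.isCharacter.conj).sub_irr isIrrCharacter_one (by
    have h5 := hψ.inner_self
    rw [classInner_def] at h5 ⊢
    simp only [Pi.mul_apply, map_one, mul_one, h5]
    exact one_ne_zero)
  have hs1 : ∑ u : 𝐏, ψ u * conj (ψ u) = p * (f ^ 2 * E) := by
    apply mul_left_cancel₀ hC0
    have h5 := hS 1 (one_mem _) not_dvd_orderOf_one
    simp only [mul_one, mul_inv_cancel, hf, map_natCast, Finset.sum_const, Finset.card_univ,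
      nsmul_eq_mul, hN] at h5
    rw [h5]; ring
  have hE2 : 2 ≤ E := by omega
  have hfE : 1 ≤ f ^ 2 * E := Nat.mul_pos (by positivity) (by omega)
  have hd1 : 1 ≤ d ^ 2 := Nat.one_le_pow _ _ (h4 ▸ Nat.mul_pos hf0 (by omega))
  have hcP : (Fintype.card 𝐏 : ℂ) = p := by rw [← Nat.card_eq_fintype_card, hP]
  obtain ⟨-, h6, h7⟩ := fix_bound hx hG hM (by nlinarith) hΦ (d ^ 2 - 1) (f ^ 2 * E - 1)
    (by rw [Nat.cast_sub hd1]; simp [hd, sq])
    (by simp only [Pi.sub_apply, Pi.mul_apply, Finset.sum_sub_distrib, hs1, Nat.cast_sub hfE]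
        simp [hcP, mul_sub])
    (by have h5 := hψ.inner_self
        rw [classInner_def, inv_mul_eq_one₀ (Nat.cast_ne_zero.2 Nat.card_pos.ne')] at h5
        simp [Finset.sum_sub_distrib, ← h5])
  rw [← hE] at h6
  rcases Nat.lt_or_ge f 2 with hf2 | hf2
  · obtain rfl : f = 1 := by omega
    have h8 := h7 fun y hy hy' => by
      have h9 := hS y hy hy'
      obtain ⟨μ, hμ⟩ := hθ.isCharacter.exists_linear (by simpa using hf)
      have h10 : ∀ n : 𝐍, θ (n * y * (n : G)⁻¹) * conj (θ (n * y * (n : G)⁻¹)) = 1 := fun n => by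
        have h11 : θ (n * y * (n : G)⁻¹) = μ ⟨_, hcj n hy⟩ := congrFun hμ ⟨_, hcj n hy⟩
        rw [Complex.mul_conj', h11, norm_hom]; simp
      simp only [h10, Finset.sum_const, Finset.card_univ, nsmul_eq_mul, hN, mul_one] at h9
      rw [mul_left_comm] at h9
      simp only [Pi.sub_apply, Pi.mul_apply, Finset.sum_sub_distrib, hs1,
        mul_left_cancel₀ hC0 h9]
      simp
    rw [one_mul] at h4
    subst h4
    obtain ⟨k, hk'⟩ : ∃ k, E = k + 2 := ⟨E - 2, by omega⟩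
    rw [hk'] at h8 hdp
    have h9 : (k + 2) ^ 2 - 1 = (k + 1) * (k + 3) := by
      rw [show (k + 2) ^ 2 = (k + 1) * (k + 3) + 1 by ring, Nat.add_sub_cancel]
    rw [h9, show 1 ^ 2 * (k + 2) - 1 = k + 1 by omega] at h8
    nlinarith
  rcases h with h | h
  · have h8 := hθ.one_eq_one_of_comm fun a b => Subtype.ext (h a a.2 b b.2)
    have h9 : (f : ℂ) = 1 := hf.symm.trans h8
    have : f = 1 := by exact_mod_cast h9
    omega
  · have h8 := h f (by nlinarith) E (by nlinarith) h4 hf2 hE2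
    have h9 := h6 (Nat.sub_pos_of_lt (by nlinarith))
    rw [h4, mul_pow] at h9 hd1
    omega

/-- Brauer's theorem. -/
theorem normal_of_char (hx : orderOf x = p) (hG : ¬ p ^ 2 ∣ Nat.card G) {χ : G → ℂ}
    (hχ : IsCharacter G χ) (hf : ∀ g, χ g = χ 1 → g = 1) {n : ℕ} (hn : χ 1 = n) (hnp : n + 2 ≤ p)
    (h : ∀ d ≤ n, d ∣ Nat.card G → 2 * d + 1 < p ∧
      ((∀ a ∈ 𝐂, ∀ b ∈ 𝐂, a * b = b * a) ∨ Sm p d)) : (zpowers x).Normal := by
  set M := normalClosure ({x} : Set G) with hM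
  have hxM : x ∈ M := subset_normalClosure rfl
  let y : M := ⟨x, hxM⟩
  have hy : orderOf y = p := by rw [orderOf_mk, hx]
  have hG' : ¬ p ^ 2 ∣ Nat.card M := fun h => hG (h.trans (card_subgroup_dvd_card M))
  have hcj : ∀ g : G, g * x * g⁻¹ ∈ M := fun g => normalClosure_normal.conj_mem x hxM g
  have htop : normalClosure {y} = ⊤ := by
    rw [eq_top_iff, ← map_le_map_iff_of_injective M.subtype_injective, ← MonoidHom.range_eq_map,
      range_subtype]
    refine (closure_le _).2 fun z hz => ?_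
    obtain ⟨a, ha, h1⟩ := Group.mem_conjugatesOfSet_iff.1 hz
    obtain ⟨g, rfl⟩ := isConj_iff.1 h1
    rw [Set.mem_singleton_iff.1 ha]
    obtain ⟨b, hb⟩ := ModSl2.exists_conj_mem_zpowers hy hG' (y := ⟨_, hcj g⟩)
      (by rw [orderOf_mk, orderOf_conj_eq, hx])
    refine ⟨⟨_, hcj g⟩, ?_, rfl⟩
    have h2 := normalClosure_normal.conj_mem _
      (zpowers_le.2 (subset_normalClosure (s := {y}) rfl) hb) b⁻¹
    simpa [mul_assoc] using h2
  by_cases hN : normalizer ((zpowers y : Subgroup M) : Set M) ≤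
      centralizer ((zpowers y : Subgroup M) : Set M)
  · refine ModSl2.normal_of_commute hx hG fun g => ?_
    have h1 := apply_comm_of_le hy hG' hN (hχ.restrict M) (fun e he => by
      have : e = n := by exact_mod_cast he.symm.trans hn
      omega) ⟨_, hcj g⟩
    have h2 := hf _ h1
    rw [coe_mul, coe_mul, coe_mul, coe_inv, coe_inv, mul_inv_eq_one, mul_inv_eq_iff_eq_mul] at h2
    exact h2.symm
  have key : ∀ φ : M → ℂ, IsCharacter M φ → (∀ d : ℕ, φ 1 = d → d ≤ n) → φ y = φ 1 := by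
    intro φ hφ
    refine hφ.induction_on (fun _ => rfl) fun α β hα hβ ih h1 => ?_
    obtain ⟨a, ha⟩ := hα.isCharacter.exists_nat_one
    obtain ⟨b, hb⟩ := hβ.exists_nat_one
    have h2 := h1 (a + b) (by simp [ha, hb])
    obtain ⟨h3, h4⟩ := h a (by omega) ((hα.deg_dvd_card ha).trans (card_subgroup_dvd_card M))
    rw [Pi.add_apply, Pi.add_apply, ih fun d hd => by
      have : d = b := by exact_mod_cast hd.symm.trans hb
      omega, (brauer_irr hy hG' htop hα ha h3 (h4.imp_left fun h5 a ha b hb => Subtype.ext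
        (h5 _ (mem_C_iff.2 (congrArg Subtype.val (mem_C_iff.1 ha))) _
          (mem_C_iff.2 (congrArg Subtype.val (mem_C_iff.1 hb)))))).resolve_right hN]
  have h1 := hf x (key _ (hχ.restrict M) fun d hd => by
    have : d = n := by exact_mod_cast hd.symm.trans hn
    omega)
  rw [h1, zpowers_one_eq_bot]
  infer_instance

end Cfsg.Agent.CTL
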