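import Mathlib
import Cfsg.Agent.CTL.Lift
import Cfsg.Agent.Class.PGL2Dickson
import Cfsg.Agent.Class.FG.IndexTwo
import Cfsg.Agent.S4201

/-! Transitive linear groups of order prime to the characteristic: dimension two. -/

set_option autoImplicit false
set_option linter.unusedSectionVars false

namespace Cfsg.Agent.CTL

open Module Subgroup Cfsg Cfsg.Agent.Char Cfsg.Agent.Perm.SemiLin Cfsg.Agent.Class.Dickson
  MatrixGroups

theorem comm_mem_unip {K : Type*} [Field K] {x : P1 K} {g h : PGL(2, K)} (hg : g • x = x)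
    (hh : h • x = x) : g * h * (h * g)⁻¹ ∈ unip x := by
  obtain ⟨k, rfl⟩ := exists_smul_inf x
  rw [← conj_smul_eq_iff] at hg hh
  rw [← conj_mem_unip, show k⁻¹ * (g * h * (h * g)⁻¹) * k =
    (k⁻¹ * g * k) * (k⁻¹ * h * k) * ((k⁻¹ * h * k) * (k⁻¹ * g * k))⁻¹ by group]
  obtain ⟨a, ha⟩ := exists_pmk (k⁻¹ * g * k)
  obtain ⟨b, hb⟩ := exists_pmk (k⁻¹ * h * k)
  rw [ha] at hg
  rw [hb] at hh
  have h0 : (pmk a * pmk b * (pmk b * pmk a)⁻¹) • inf K = inf K := by
    rw [mul_smul, mul_smul, inv_smul_eq_iff.2 (by rw [mul_smul, hg, hh]), hh, hg]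
  rw [ha, hb, ← map_mul, ← map_mul, ← map_inv, ← map_mul, pmk_mem_unip_inf]
  rw [← map_mul, ← map_mul, ← map_inv, ← map_mul] at h0
  rw [pmk_smul_inf_eq_inf] at hg hh h0
  set c := a * b * (b * a)⁻¹
  have h1 : c * (b * a) = a * b := inv_mul_cancel_right _ _
  have h2 := congrArg (fun m : GL (Fin 2) K => m 0 0) h1
  have h3 := congrArg (fun m : GL (Fin 2) K => m 1 1) h1
  have h4 := gl_det_ne a
  have h5 := gl_det_ne b
  simp only [gl_mul_apply, hg, hh, h0, mul_zero, zero_mul, add_zero, zero_add, sub_zero] at h2 h3 h4 h5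
  refine ⟨h0, mul_right_cancel₀ (mul_ne_zero h4 h5) ?_⟩
  linear_combination a 1 1 * b 1 1 * h2 - a 0 0 * b 0 0 * h3

variable {G : Type*} [Group G] [Finite G]

theorem deg_two {χ : G → ℂ} (hχ : IsCharacter G χ) (h2 : χ 1 = (2 : ℕ))
    (hf : ∀ g, χ g = χ 1 → g = 1) (S : Subgroup G)
    (hS : ∀ A : Subgroup G, A.Normal → (∀ a ∈ A, ∀ b ∈ A, a * b = b * a) → A ≤ S) :
    S.index ≤ 2 ∨ ∃ (Z : Subgroup G) (_ : Z.Normal), Z ≤ S ∧
      (Nonempty (G ⧸ Z ≃* alternatingGroup (Fin 4)) ∨ Nonempty (G ⧸ Z ≃* Equiv.Perm (Fin 4)) ∨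
        Nonempty (G ⧸ Z ≃* alternatingGroup (Fin 5))) := by
  obtain ⟨n, ρ, rfl⟩ := hχ
  obtain rfl : n = 2 := by exact_mod_cast (by simpa [ρ.char_one] using h2 : (n : ℂ) = 2)
  let f : G →* GL (Fin 2) ℂ := ((LinearMap.toMatrixAlgEquiv' (R := ℂ) (n := Fin 2)
    ).toMonoidHom.comp ρ).toHomUnits
  have hinj : Function.Injective f := (injective_iff_map_eq_one f).mpr fun g hg =>
    hf g (by
      have : ρ g = ρ 1 := (LinearMap.toMatrixAlgEquiv' (R := ℂ) (n := Fin 2)).injective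
        (congrArg Units.val (hg.trans (map_one f).symm))
      simp only [Representation.character, this])
  let π : G →* PGL(2, ℂ) := Matrix.ProjGenLinGroup.mk.comp f
  have hker : π.ker ≤ center G := fun z h => mem_center_iff.mpr fun g => hinj (by
    rw [MonoidHom.mem_ker, MonoidHom.comp_apply, Matrix.ProjGenLinGroup.mk_eq_one] at h
    rw [map_mul, map_mul, mem_center_iff.mp h])
  have key : ∀ a : G ⧸ π.ker, (zpowers a).Normal → (zpowers a).comap (QuotientGroup.mk' _) ≤ S := by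
    intro a ha
    refine hS _ inferInstance fun u ⟨i, hi⟩ v ⟨j, hj⟩ => ?_
    obtain ⟨a, rfl⟩ := QuotientGroup.mk'_surjective _ a
    simp only [← map_zpow, QuotientGroup.mk'_eq_mk'] at hi hj
    obtain ⟨y, hy, rfl⟩ := hi
    obtain ⟨z, hz, rfl⟩ := hj
    have h1 : ∀ g, Commute g y := mem_center_iff.1 (hker hy)
    have h3 : ∀ g, Commute g z := mem_center_iff.1 (hker hz)
    exact (((Commute.refl a).zpow_zpow i j).mul_left (h1 _).symm).mul_right (h3 _)
  let φ := QuotientGroup.kerLift π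
  have hφ : Function.Injective φ := QuotientGroup.kerLift_injective π
  have hU : ∀ (x : P1 ℂ) (g : G ⧸ π.ker), φ g ∈ unip x → g = 1 := fun x g hg => by
    obtain ⟨h, rfl⟩ := exists_smul_inf x
    obtain ⟨b, hb⟩ := mem_unip_inf.mp ((conj_mem_unip h _ _).mpr hg)
    have h1 : transl b ^ Nat.card (G ⧸ π.ker) = 1 := by
      rw [← hb, ← inv_inv h, inv_inv h⁻¹, conj_pow, ← map_pow, pow_card_eq_one', map_one]
      group
    rw [transl_pow, transl_eq_one_iff, mul_eq_zero, Nat.cast_eq_zero] at h1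
    rw [h1.resolve_left Nat.card_pos.ne', transl_zero, mul_assoc, inv_mul_eq_one, right_eq_mul] at hb
    exact (map_eq_one_iff φ hφ).mp hb
  rcases tame_algClosed φ hφ hU with ⟨x, hx⟩ | ⟨x, y, hxy, h⟩ | h
  · have hc : ∀ a b : G ⧸ π.ker, a * b = b * a := fun a b => mul_inv_eq_one.1 (hU x _ (by
      simpa only [map_mul, map_inv] using comm_mem_unip (hx a) (hx b)))
    have : S = ⊤ := eq_top_iff.2 fun g _ => key (g : G ⧸ π.ker)
      ⟨fun a ha b => by rwa [hc b a, mul_inv_cancel_right]⟩ (mem_zpowers _)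
    rw [this, index_top]
    exact Or.inl one_le_two
  · obtain ⟨a, hax, hay, h1, h3⟩ := cyclic_or_dihedral_of_pair φ hφ hxy h
    have hn : (zpowers a).Normal := ⟨fun _ ⟨k, hk⟩ g => by
      have h4 : g * a * g⁻¹ ∈ zpowers a := h1 _ (by
        rw [map_mul, map_mul, mul_smul, mul_smul]
        rcases h g⁻¹ with h5 | h5
        · rw [h5.1, hax, ← inv_smul_eq_iff.1 (map_inv φ g ▸ h5.1)]
        · rw [h5.1, hay, ← inv_smul_eq_iff.1 (map_inv φ g ▸ h5.1)])
      rw [← hk, ← conj_zpow]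
      exact zpow_mem h4 k⟩
    have h4 := Nat.le_of_dvd (Nat.pos_of_ne_zero index_ne_zero_of_finite) (index_dvd_of_le (key a hn))
    rw [index_comap_of_surjective _ (QuotientGroup.mk'_surjective _)] at h4
    refine Or.inl (h4.trans ?_)
    rcases h3 with h3 | ⟨⟨e⟩⟩
    · rw [h3, index_top]; exact one_le_two
    · have h5 := (zpowers a).index_mul_card
      rw [Nat.card_congr e.toEquiv, DihedralGroup.nat_card, Nat.card_zpowers] at h5
      exact (Nat.eq_of_mul_eq_mul_right (orderOf_pos a) h5).le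
  · refine Or.inr ⟨π.ker, inferInstance, hS _ inferInstance fun a ha b _ => ?_, h⟩
    exact (mem_center_iff.1 (hker ha) b).symm

theorem conj_le_five {H : Type*} [Group H] [Fintype H] [DecidableEq H] {m c : ℕ}
    (h1 : Nat.card H = m) (h2 : Fintype.card {p : H × H // p.1 * p.2 = p.2 * p.1} = c)
    (h3 : c < 6 * m) : Nat.card (ConjClasses H) ≤ 5 ∧ Nat.card H = m := by
  have h := card_comm_eq_card_conjClasses_mul_card H
  rw [← Nat.card_eq_fintype_card] at h2
  have h4 : c = Nat.card (ConjClasses H) * m := by rw [← h1]; exact h2.symm.trans h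
  exact ⟨Nat.le_of_lt_succ (Nat.lt_of_mul_lt_mul_right (h4 ▸ h3)), h1⟩

theorem card_conj_A4 : Nat.card (ConjClasses (alternatingGroup (Fin 4))) ≤ 5 ∧
    Nat.card (alternatingGroup (Fin 4)) = 12 :=
  conj_le_five (c := 48) (by rw [nat_card_alternatingGroup]; simp [Nat.factorial])
    (by decide +kernel) (by norm_num)

theorem card_conj_S4 : Nat.card (ConjClasses (Equiv.Perm (Fin 4))) ≤ 5 ∧
    Nat.card (Equiv.Perm (Fin 4)) = 24 :=
  conj_le_five (c := 120) (by rw [Nat.card_perm]; simp [Nat.factorial])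
    (by decide +kernel) (by norm_num)

theorem card_conj_A5 : Nat.card (ConjClasses (alternatingGroup (Fin 5))) ≤ 5 ∧
    Nat.card (alternatingGroup (Fin 5)) = 60 :=
  conj_le_five (c := 300) (by rw [nat_card_alternatingGroup]; simp [Nat.factorial])
    (by decide +kernel) (by norm_num)

theorem card_conj_le (H : Type*) [Group H] [Finite H] : Nat.card (ConjClasses H) ≤ Nat.card H :=
  Nat.card_le_card_of_surjective _ ConjClasses.mk_surjective

variable {p : ℕ} [hp : Fact p.Prime] {V : Type*} [AddCommGroup V] [Module (ZMod p) V] [Finite V]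
  {ρ : G →* End (ZMod p) V}

theorem dim_two (ht : Trans ρ) (hρ : Function.Injective ρ) (hG : ¬ p ∣ Nat.card G) (hp2 : p ≠ 2)
    (hn : Nat.card V = p ^ 2) {h : ℕ} (hh : Nat.card G = (p ^ 2 - 1) * h) :
    IsSemiLin ρ 2 ∨ Nat.card (ConjClasses G) + h < p ^ 2 := by
  rw [or_iff_not_imp_left]
  intro hs
  have := nontrivial_of_card two_pos hn
  obtain ⟨χ, hχ, h1, hf⟩ := exists_char ρ hρ hG
  rw [finrank_eq_of_card hn] at h1
  have h2 := hp.out.two_le
  have h3 := Nat.le_of_dvd (by omega) (card_scal_dvd hρ)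
  obtain ⟨t, rfl⟩ : ∃ t, p = t + 1 := ⟨p - 1, by omega⟩
  rw [show (t + 1) ^ 2 - 1 = t * (t + 2) from Nat.sub_eq_of_eq_add (by ring)] at hh
  rw [Nat.add_sub_cancel] at h3
  have h0 : 0 < h := Nat.pos_of_ne_zero (by rintro rfl; exact Nat.card_pos.ne' hh)
  rcases deg_two hχ h1 hf (scal ρ) fun A _ hA => by
    by_contra h4
    exact hs (ht.isSemiLin_of_nonscalar hn (fun a ha b hb => by
      rw [← map_mul, ← map_mul, hA a ha b hb]) h4) with h4 | ⟨Z, _, h4, h5⟩
  · have h5 := (scal ρ).index_mul_card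
    have h6 := Nat.mul_le_mul h4 h3
    have : t * (t + 2) ≤ t * (t + 2) * h := Nat.le_mul_of_pos_right _ h0
    nlinarith
  have h6 := (card_le_of_le h4).trans h3
  have h7 := S4201.result Z
  have h8 := card_eq_card_quotient_mul_card_subgroup Z
  have h9 : Nat.card (ConjClasses (G ⧸ Z)) ≤ 5 ∧ (Nat.card (G ⧸ Z) = 12 ∨ Nat.card (G ⧸ Z) = 24 ∨
      Nat.card (G ⧸ Z) = 60) := by
    rcases h5 with ⟨⟨e⟩⟩ | ⟨⟨e⟩⟩ | ⟨⟨e⟩⟩ <;>
      rw [Class.FG.card_conjClasses_congr e, Nat.card_congr e.toEquiv]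
    · exact card_conj_A4.imp_right Or.inl
    · exact card_conj_S4.imp_right fun h => Or.inr (Or.inl h)
    · exact card_conj_A5.imp_right fun h => Or.inr (Or.inr h)
  have h10 := h7.trans (Nat.mul_le_mul ((card_conj_le Z).trans h6) h9.1)
  have h11 : (t + 2) * h ≤ Nat.card (G ⧸ Z) := by
    refine Nat.le_of_mul_le_mul_left ?_ (show 0 < t by omega)
    rw [← mul_assoc, ← hh, h8, mul_comm]
    exact Nat.mul_le_mul_right _ h6
  have h12 : ¬ t + 1 ∣ Nat.card (G ⧸ Z) := fun h => hG (h.trans (card_quotient_dvd_card Z))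
  by_cases h13 : t = 2
  · subst h13; omega
  by_cases h14 : t = 4
  · subst h14; omega
  have h15 := hp.out.five_le_of_ne_two_of_ne_three hp2 (by omega)
  have h16 : 6 ≤ t := by
    have := hp.out.eq_two_or_odd
    omega
  have h17 := Nat.mul_le_mul_right h (show 8 ≤ t + 2 by omega)
  have h18 : h ≤ 7 := by omega
  nlinarith

end Cfsg.Agent.CTL
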