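import Mathlib
import Cfsg.Agent.CTL.Two
import Cfsg.Agent.S4200

/-! Class numbers of one-dimensional semilinear groups. -/

set_option autoImplicit false
set_option linter.unusedSectionVars false

namespace Cfsg.Agent.CTL

open Module Subgroup Cfsg Cfsg.Agent.Perm.SemiLin

variable {G : Type*} [Group G] [Finite G]

theorem conj_mul_index_le (A : Subgroup G) {u : ℕ}
    (h : ∀ x ∉ A, Nat.card ↥(centralizer ({x} : Set G) ⊓ A) ≤ u) :
    Nat.card (ConjClasses G) * A.index ≤ Nat.card A + (A.index ^ 2 - 1) * u := by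
  classical
  have := Fintype.ofFinite G
  have h1 := KSG.card_conjClasses_mul_card_eq_sum (G := G)
  have h2 := S4200.swap A
  have hA : (Finset.univ.filter (· ∈ A)).card = Nat.card A := by
    rw [Nat.card_eq_fintype_card, Fintype.card_subtype]
  have hB := Finset.card_filter_add_card_filter_not (s := Finset.univ) (· ∈ A)
  rw [hA, Finset.card_univ, ← Nat.card_eq_fintype_card, ← A.index_mul_card] at hB
  rw [← Finset.sum_filter_add_sum_filter_not _ (· ∈ A)] at h1 h2
  rw [← Finset.sum_subtype (Finset.univ.filter (· ∈ A)) (by simp)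
    fun y => Nat.card (centralizer ({y} : Set G))] at h2
  have h3 := Finset.sum_le_card_nsmul (Finset.univ.filter (· ∈ A)) _ _
    fun x _ => card_le_of_le (inf_le_right : centralizer ({x} : Set G) ⊓ A ≤ A)
  have h4 := Finset.sum_le_card_nsmul (Finset.univ.filter (· ∉ A)) _ _
    fun x hx => h x (Finset.mem_filter.1 hx).2
  have h5 := Finset.sum_le_card_nsmul (Finset.univ.filter (· ∉ A)) _ _
    fun x hx => (S4200.card_le _ A).trans (Nat.mul_le_mul_left _ (h x (Finset.mem_filter.1 hx).2))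
  obtain ⟨m, hm⟩ : ∃ m, A.index = m + 1 :=
    Nat.exists_eq_succ_of_ne_zero index_ne_zero_of_finite
  rw [← A.index_mul_card] at h1
  rw [hA] at h3
  rw [smul_eq_mul] at h3 h4 h5
  rw [hm] at hB h1 h5 ⊢
  rw [show (Finset.univ.filter (· ∉ A)).card = m * Nat.card A by linarith] at h4 h5
  rw [show (m + 1) ^ 2 - 1 = m * (m + 2) from Nat.sub_eq_of_eq_add (by ring)]
  refine Nat.le_of_mul_le_mul_right ?_ (Nat.card_pos (α := A))
  nlinarith

theorem ineq_a {c : ℕ} (hc : 2 ≤ c) : 2 * c + 1 < 3 ^ c := by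
  induction c, hc using Nat.le_induction with
  | base => norm_num
  | succ n hn ih => rw [pow_succ]; omega

theorem ineq_b {c : ℕ} (hc : 3 ≤ c) : 3 * c + 2 < 2 * 2 ^ c := by
  induction c, hc using Nat.le_induction with
  | base => norm_num
  | succ n hn ih => rw [pow_succ]; omega

theorem num_semi {p n m : ℕ} (hp : p.Prime) (hn : 0 < n) (hm : m ≠ 1) (hmn : m ∣ n) (hpm : ¬ p ∣ m) :
    (m + 1) * p ^ (n / m.minFac) < p ^ n ∨ ((m + 1) * p ^ (n / m.minFac) = p ^ n ∧
      ((p ^ n = 8 ∧ m = 3) ∨ (p ^ n = 9 ∧ m = 2))) := by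
  have hl := Nat.minFac_prime hm
  have h1 := Nat.minFac_dvd m
  have h2 := Nat.le_of_dvd hn hmn
  have h3 := Nat.le_of_dvd (Nat.pos_of_dvd_of_pos hmn hn) h1
  have h4 := hp.two_le
  obtain ⟨c, rfl⟩ := h1.trans hmn
  obtain ⟨l, hl'⟩ : ∃ l, m.minFac = l + 1 := Nat.exists_eq_succ_of_ne_zero hl.ne_zero
  have h5 := hl.two_le
  rw [Nat.mul_div_cancel_left c hl.pos]
  rw [hl'] at h1 h2 h3 h5 hn ⊢
  have hc : 0 < c := Nat.pos_of_mul_pos_left hn
  rw [add_mul l, one_mul, pow_add, Nat.mul_lt_mul_right (by positivity),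
    mul_left_inj' (by positivity)]
  by_cases h6 : l = 1
  · subst h6
    have h7 : 3 ≤ p := by
      by_contra h
      obtain rfl : p = 2 := by omega
      exact hpm h1
    have h8 := Nat.pow_le_pow_left h7 c
    rw [one_mul]
    by_cases h9 : c = 1
    · subst h9
      obtain rfl : m = 2 := by omega
      rcases h7.eq_or_lt with rfl | h
      · simp
      · left; simpa using h
    · have := ineq_a (show 2 ≤ c by omega)
      left; omega
  · have h8 := Nat.pow_le_pow_left h4 (l * c)
    have h7 := Nat.mul_le_mul_right c (show 2 ≤ l by omega)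
    rw [add_mul, one_mul] at h2
    by_cases h9 : l * c = 2
    · obtain rfl : c = 1 := by omega
      obtain rfl : l = 2 := by omega
      obtain rfl : m = 3 := by omega
      rcases h4.eq_or_lt with rfl | h
      · simp
      · left; rw [mul_one, sq]; nlinarith
    · have := ineq_b (show 3 ≤ l * c by omega)
      left; omega

variable {p : ℕ} [hp : Fact p.Prime] {V : Type*} [AddCommGroup V] [Module (ZMod p) V] [Finite V]
  {ρ : G →* End (ZMod p) V}

theorem count_semi (hρ : Function.Injective ρ) (hG : ¬ p ∣ Nat.card G) {n : ℕ} (hn0 : 0 < n)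
    (hs : IsSemiLin ρ n) {h : ℕ} (hh : Nat.card G = (p ^ n - 1) * h) :
    Nat.card (ConjClasses G) + h ≤ p ^ n ∧ (Nat.card (ConjClasses G) + h = p ^ n →
      IsCyclic G ∨ (p ^ n = 8 ∧ Nat.card G = 21) ∨ (p ^ n = 9 ∧ Nat.card G = 16)) := by
  obtain ⟨f, hf⟩ := hs
  choose a σ ha hf using hf
  have hmul : ∀ g k w, a (g * k) * σ (g * k) w = a g * σ g (a k) * σ g (σ k w) := fun g k w => by
    obtain ⟨v, rfl⟩ := f.surjective w
    rw [← hf, map_mul, End.mul_apply, hf, hf, map_mul, mul_assoc]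
  have hma : ∀ g k, a (g * k) = a g * σ g (a k) := fun g k => by simpa using hmul g k 1
  have ha1 : a 1 = 1 := by simpa using (hf 1 (f.symm 1)).symm
  let τ : G →* (GaloisField p n ≃ₐ[ZMod p] GaloisField p n) := MonoidHom.mk'
    (fun g => AlgEquiv.ofRingEquiv (f := σ g) fun x => by
      rw [← ZMod.natCast_zmod_val x, map_natCast, map_natCast])
    fun g k => AlgEquiv.ext fun w => mul_left_cancel₀ (ha _) ((hmul g k w).trans (by rw [hma]; rfl))
  have hτ : ∀ g ∈ τ.ker, ∀ w, σ g w = w := fun g hg w => AlgEquiv.congr_fun hg w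
  let α : τ.ker →* GaloisField p n :=
    { toFun := fun g => a g, map_one' := ha1
      map_mul' := fun g k => by rw [coe_mul, hma, hτ g g.2] }
  have hα : Function.Injective α := fun g k e => Subtype.ext (hρ (LinearMap.ext fun v =>
    f.injective (by rw [hf, hf, hτ g g.2, hτ k k.2, show a g = a k from e])))
  have hq := GaloisField.card p n hn0.ne'
  have hq1 : 1 < p ^ n := Nat.one_lt_pow hn0.ne' hp.out.one_lt
  have hA : Nat.card τ.ker ≤ p ^ n - 1 := by
    rw [← hq, ← Nat.card_units]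
    exact Nat.card_le_card_of_injective α.toHomUnits fun g k e => hα (congrArg Units.val e)
  have hm := τ.ker.index_mul_card
  have h1 : h ≤ τ.ker.index := by
    refine Nat.le_of_mul_le_mul_left ?_ (show 0 < p ^ n - 1 by omega)
    rw [← hh, ← hm, mul_comm]
    exact Nat.mul_le_mul_right _ hA
  by_cases hm1 : τ.ker.index = 1
  · have h2 := card_conj_le G
    rw [hm1, one_mul] at hm
    refine ⟨by omega, fun _ => Or.inl ?_⟩
    have := isCyclic_of_injective_ringHom α hα
    exact isCyclic_of_surjective τ.ker.subtype fun g => ⟨⟨g, index_eq_one.1 hm1 ▸ mem_top g⟩, rfl⟩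
  have hmn : τ.ker.index ∣ n := by
    rw [index_ker]
    exact (card_subgroup_dvd_card _).trans (by
      rw [IsGalois.card_aut_eq_finrank, GaloisField.finrank p hn0.ne'])
  have h2 := conj_mul_index_le τ.ker (u := p ^ (n / τ.ker.index.minFac) - 1) fun x hx => by
    let K := IntermediateField.fixedField (zpowers (τ x))
    have h3 := Module.finrank_mul_finrank (ZMod p) K (GaloisField p n)
    rw [IntermediateField.finrank_fixedField_eq_card, GaloisField.finrank p hn0.ne',
      Nat.card_zpowers] at h3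
    have h4 : τ.ker.index.minFac ≤ orderOf (τ x) := Nat.minFac_le_of_dvd
      ((Nat.two_le_iff _).2 ⟨(orderOf_pos _).ne', fun e => hx (orderOf_eq_one_iff.1 e)⟩)
      (by rw [index_ker]; exact orderOf_dvd_natCard _ ⟨x, rfl⟩)
    have h5 : finrank (ZMod p) K ≤ n / τ.ker.index.minFac := by
      rw [Nat.le_div_iff_mul_le (Nat.minFac_pos _)]
      exact (Nat.mul_le_mul_left _ h4).trans h3.le
    have h6 : ∀ g : ↥(centralizer ({x} : Set G) ⊓ τ.ker), a g ∈ K := fun g => by
      have h7 : σ x (a g) = a g := mul_left_cancel₀ (ha x) (by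
        rw [← hma, g.2.1 x rfl, hma, hτ g g.2.2, mul_comm])
      have h8 : zpowers (τ x) ≤ MulAction.stabilizer _ (a g) := zpowers_le.2 h7
      exact (IntermediateField.mem_fixedField_iff _ _).2 fun s hs => h8 hs
    refine le_trans ?_ (Nat.sub_le_sub_right (Nat.pow_le_pow_right hp.out.pos h5) 1)
    have h7 : Nat.card K = p ^ finrank (ZMod p) K := by
      rw [Module.natCard_eq_pow_finrank (K := ZMod p), Nat.card_zmod]
    rw [← h7, ← Nat.card_units]
    refine Nat.card_le_card_of_injective (fun g => Units.mk0 (⟨a g, h6 g⟩ : K)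
      fun e => ha g (congrArg Subtype.val e)) fun g k e => Subtype.ext ?_
    exact Subtype.mk.inj (@hα ⟨g, g.2.2⟩ ⟨k, k.2.2⟩ (congrArg (Subtype.val ∘ Units.val) e))
  have h3 := num_semi hp.out hn0 hm1 hmn fun e => hG (e.trans (index_dvd_card _))
  have h4 : 0 < p ^ (n / τ.ker.index.minFac) := pow_pos hp.out.pos _
  have h5 : τ.ker.index ≠ 0 := index_ne_zero_of_finite
  generalize p ^ (n / τ.ker.index.minFac) = u at h2 h3 h4
  generalize τ.ker.index = m at h1 h2 h3 h5 hm1
  obtain ⟨u, rfl⟩ := Nat.exists_eq_succ_of_ne_zero h4.ne'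
  obtain ⟨m, rfl⟩ : ∃ k, m = k + 2 := ⟨m - 2, by omega⟩
  obtain ⟨q, hq'⟩ := Nat.exists_eq_succ_of_ne_zero (show p ^ n ≠ 0 by omega)
  rw [show (m + 2) ^ 2 - 1 = (m + 1) * (m + 3) from Nat.sub_eq_of_eq_add (by ring)] at h2
  rw [hq'] at h3 hA hh ⊢
  simp only [Nat.succ_eq_add_one, Nat.add_sub_cancel] at h2 h3 hA hh ⊢
  rcases h3 with h3 | ⟨h3, h6⟩
  · have : Nat.card (ConjClasses G) + (m + 2) < q + 1 := by nlinarith
    omega
  · have : Nat.card (ConjClasses G) + (m + 2) ≤ q + 1 := by nlinarith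
    refine ⟨by omega, fun h7 => Or.inr ?_⟩
    rcases h6 with ⟨h6, h8⟩ | ⟨h6, h8⟩
    · obtain rfl : h = 3 := by omega
      omega
    · obtain rfl : h = 2 := by omega
      omega

end Cfsg.Agent.CTL
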