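import Mathlib
import Cfsg.Agent.S3430

/-! Very large primitive prime divisors. -/

set_option autoImplicit false

namespace Cfsg.Agent.CTL

open Misc.Zsig Polynomial

theorem ineq_t {t : ℕ} (ht : 35 ≤ t) : 2 * t ^ 2 * (2 * t ^ 2 + 1) * (2 * (2 * t ^ 2) + 1) ≤ 2 ^ t := by
  induction t, ht using Nat.le_induction with
  | base => norm_num
  | succ n hn ih =>
    have h1 : 2 * (n + 1) ^ 2 * (2 * (n + 1) ^ 2 + 1) * (2 * (2 * (n + 1) ^ 2) + 1) ≤
        2 * (2 * n ^ 2 * (2 * n ^ 2 + 1) * (2 * (2 * n ^ 2) + 1)) := by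
      obtain ⟨k, rfl⟩ := Nat.exists_eq_add_of_le hn
      ring_nf; omega
    rw [pow_succ 2]
    omega

/-- The number of integers below `m` that are coprime to `n`. -/
def cnt (n m : ℕ) : ℕ := Nat.rec 0 (fun k c => cond (Nat.beq (Nat.gcd n k) 1) (c + 1) c) m

theorem cnt_eq (n m : ℕ) : cnt n m = Nat.count (fun k => Nat.gcd n k = 1) m := by
  induction m with
  | zero => rfl
  | succ m ih =>
    rw [Nat.count_succ, ← ih]
    change cond (Nat.beq (Nat.gcd n m) 1) (cnt n m + 1) (cnt n m) = _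
    by_cases h : Nat.gcd n m = 1
    · simp [h]
    · simp [h, Bool.cond_eq_ite]

theorem chk1 : ∀ n < 2313, 60 < n → n * (n + 1) * (2 * n + 1) ≤ 2 ^ cnt n (min n 170) := by
  decide +kernel

theorem chk2 : ∀ n < 61, 3 ≤ n → n * (n + 1) * (2 * n + 1) ≤ 24 ^ n.totient := by
  decide +kernel

set_option synthInstance.maxSize 4000 in
theorem chk3 : ∀ n < 61, ∀ q < 25, 3 ≤ n → 3 ≤ q →
    q ^ n - 1 ∣ n * (n + 1) * (2 * n + 1) * ∏ d ∈ n.properDivisors, (q ^ d - 1) →
    (q, n) ∈ [(4, 3), (3, 4), (3, 6), (4, 6), (5, 6), (10, 6), (17, 6), (3, 18)] := by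
  decide +kernel

theorem prod_phi {n a : ℕ} (hn : 0 < n) (ha : 1 < a) : ∏ d ∈ n.divisors, phi d a = a ^ n - 1 := by
  have h := congrArg (eval (a : ℤ)) (prod_cyclotomic_eq_X_pow_sub_one hn ℤ)
  rw [eval_prod] at h
  zify [Nat.one_le_pow _ _ (show 0 < a by omega)]
  simp only [phi_cast _ ha]
  simpa using h

theorem exists_large {q n : ℕ} (hq : 3 ≤ q) (hn : 3 ≤ n) :
    (∃ r, IsPPD q n r ∧ (2 * n + 1 < r ∨ r ^ 2 ∣ q ^ n - 1)) ∨
    (q, n) ∈ [(4, 3), (3, 4), (3, 6), (4, 6), (5, 6), (10, 6), (17, 6), (3, 18)] := by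
  rw [or_iff_not_imp_left]
  intro hno
  push Not at hno
  have hq' : 1 < q := by omega
  have hpos := phi_pos n hq'
  have hdvd : phi n q ∣ n * (n + 1) * (2 * n + 1) := by
    refine S3430.dvd_of_sqfree hpos.ne' (fun r hr h => ?_) (fun r hr h => ?_) (by positivity)
    · by_cases hrn : r ∣ n
      · exact not_sq_dvd_phi hn hq' hr hrn h
      · exact (hno r (isPPD_of_not_dvd (by omega) hq' hr ((dvd_pow_self r two_ne_zero).trans h)
          hrn)).2 (h.trans (phi_dvd hq'))
    · by_cases hrn : r ∣ n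
      · exact (hrn.mul_right _).mul_right _
      have h5 := isPPD_of_not_dvd (by omega) hq' hr h hrn
      have h6 := h5.lt (by omega) hq'
      have h7 := (hno r h5).1
      obtain ⟨c, hc⟩ := h5.dvd_sub_one (by omega) hq'
      have h8 : c < 3 := by
        by_contra h9
        have := Nat.mul_le_mul_left n (not_lt.1 h9)
        omega
      have h9 : r = n + 1 ∨ r = 2 * n + 1 := by interval_cases c <;> omega
      rcases h9 with rfl | rfl
      · exact (Dvd.intro_left _ rfl).mul_right _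
      · exact Dvd.intro_left _ rfl
  have hlt := (lt_phi (show 1 < n by omega) hq').trans_le (Nat.le_of_dvd (by positivity) hdvd)
  have h2 := (Nat.pow_le_pow_left (show 2 ≤ q - 1 by omega) n.totient).trans_lt hlt
  have hnt := (S3430.le_totient_sq n).1
  have ht : n.totient < 35 := by
    by_contra h
    have h5 := ineq_t (not_lt.1 h)
    have h6 : n * (n + 1) * (2 * n + 1) ≤ 2 * n.totient ^ 2 * (2 * n.totient ^ 2 + 1) *
        (2 * (2 * n.totient ^ 2) + 1) := by gcongr
    omega
  have hn61 : n < 61 := by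
    by_contra h
    have h4 := Nat.pow_le_pow_left (show n.totient ≤ 34 by omega) 2
    have h5 := chk1 n (by omega) (by omega)
    have h6 : cnt n (min n 170) ≤ n.totient := by
      rw [cnt_eq, Nat.count_eq_card_filter_range]
      exact Finset.card_le_card (Finset.filter_subset_filter _ (Finset.range_mono (min_le_left _ _)))
    have := Nat.pow_le_pow_right two_pos h6
    omega
  have hq25 : q < 25 := by
    have := lt_of_pow_lt_pow_left₀ _ (Nat.zero_le _) (hlt.trans_le (chk2 n hn61 hn))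
    omega
  refine chk3 n hn61 q hq25 hn hq ?_
  rw [← prod_phi (show 0 < n by omega) hq', ← Nat.cons_self_properDivisors (by omega),
    Finset.prod_cons]
  exact Nat.mul_dvd_mul hdvd (Finset.prod_dvd_prod_of_dvd _ _ fun d _ => phi_dvd hq')

end Cfsg.Agent.CTL
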