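import Mathlib
import Cfsg.Agent.CTL.Brauer
import Cfsg.Agent.CTL.Lift
import Cfsg.Agent.CTL.Num
import Cfsg.Agent.S4485
import Cfsg.Agent.S0899

/-! Transitive linear groups of order prime to the characteristic: the generic case. -/

set_option autoImplicit false
set_option linter.unusedSectionVars false

namespace Cfsg.Agent.CTL

open Module Subgroup Cfsg Cfsg.Agent.Char Cfsg.Agent.Perm.SemiLin Misc.Zsig

variable {p : ℕ} [hp : Fact p.Prime] {G : Type*} [Group G] [Finite G]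

theorem normal_of_normal_in {C : Subgroup G} [hC : C.Normal] {x : G} (hx : x ∈ C)
    (ho : orderOf x = p) (hG : ¬ p ^ 2 ∣ Nat.card C) (h : (zpowers (⟨x, hx⟩ : C)).Normal) :
    (zpowers x).Normal := by
  refine ⟨fun a ⟨k, hk⟩ g => ?_⟩
  obtain ⟨b, hb⟩ := ModSl2.exists_conj_mem_zpowers (x := (⟨x, hx⟩ : C)) (by rw [orderOf_mk, ho]) hG
    (y := ⟨_, hC.conj_mem x hx g⟩) (by rw [orderOf_mk, Block.orderOf_conj_eq, ho])
  obtain ⟨j, hj⟩ := h.conj_mem _ hb b⁻¹
  have h1 : x ^ j = g * x * g⁻¹ := by simpa [mul_assoc] using congrArg Subtype.val hj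
  rw [← hk, ← conj_zpow, ← h1]
  exact zpow_mem (zpow_mem (mem_zpowers x) j) k

theorem sylow_normal {χ : G → ℂ} (hχ : IsCharacter G χ) (hf : ∀ g, χ g = χ 1 → g = 1) {n : ℕ}
    (hn : χ 1 = n) (hnp : n + 2 ≤ p) (h : ∀ d ≤ n, d ∣ Nat.card G → 2 * d + 1 < p ∧ Sm p d)
    (P : Sylow p G) : (P : Subgroup G).Normal := by
  obtain ⟨m, ρ, rfl⟩ := id hχ
  obtain rfl : m = n := by simpa [ρ.char_one] using hn
  refine S0899.result m ρ ((injective_iff_map_eq_one ρ).2 fun g hg => hf g ?_) p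
    (Or.inr ⟨hnp, fun K hK Q => ?_⟩) P
  · simp only [Representation.character, hg, map_one]
  by_cases h1 : p ∣ Nat.card K
  · obtain ⟨x, hx⟩ := exists_prime_orderOf_dvd_card' (G := K) p h1
    have h2 := normal_of_char hx hK (hχ.restrict K) (fun g hg => Subtype.ext (hf g hg)) hn hnp
      fun d hd h3 => (h d hd (h3.trans (card_subgroup_dvd_card K))).imp_right Or.inr
    obtain ⟨R, hR⟩ := ModSl2.exists_sylow_eq hx hK
    have := Sylow.unique_of_normal R (hR ▸ h2)
    rw [Subsingleton.elim Q R, hR]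
    exact h2
  · have h9 : Nat.card Q = 1 := by
      rw [Q.card_eq_multiplicity, Nat.factorization_eq_zero_of_not_dvd h1, pow_zero]
    exact card_eq_one.mp h9 ▸ normal_bot

theorem mem_centralizer_of_coprime {Y : Subgroup G} [Y.Normal] {x : G}
    (h : (orderOf x).Coprime (Nat.card (MulAut Y))) : x ∈ centralizer (Y : Set G) := by
  have h1 := Small.relIndex_centralizer_dvd_card_mulAut Y
  rw [normalizer_eq_top, relIndex_top_right] at h1
  have h2 := (centralizer (Y : Set G)).pow_index_mem x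
  obtain ⟨k, hk⟩ := exists_pow_eq_self_of_coprime (h.coprime_dvd_right h1).symm
  exact hk ▸ pow_mem h2 k

variable {V : Type*} [AddCommGroup V] [Module (ZMod p) V] [Finite V] {ρ : G →* End (ZMod p) V}
  {n r : ℕ} {x : G}

theorem irr_x (hρ : Function.Injective ρ) (hn : Nat.card V = p ^ n) (hr : IsPPD p n r)
    (hx : orderOf x = r) (W : Submodule (ZMod p) V) (hW : ∀ v ∈ W, ρ x v ∈ W) : W = ⊥ ∨ W = ⊤ :=
  irr_of_ppd hn hr (pow_eq_one_of_orderOf hx) (ne_one_of_orderOf hρ hr.1 hx) W hW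

theorem comm_x (hρ : Function.Injective ρ) (hn : Nat.card V = p ^ n) (hr : IsPPD p n r)
    (hx : orderOf x = r) {a b : G} (ha : x * a = a * x) (hb : x * b = b * x) : a * b = b * a := by
  apply hρ
  rw [map_mul, map_mul]
  exact comm_of_irr {ρ x} (by simp) (fun W hW => irr_x hρ hn hr hx W (hW _ rfl))
    (by simp [← map_mul, ha]) (by simp [← map_mul, hb])

theorem semi_of_normal [Nontrivial V] (hρ : Function.Injective ρ) (hn : Nat.card V = p ^ n)
    (hr : IsPPD p n r) (hx : orderOf x = r) {R : Subgroup G} [R.Normal] (hR : IsPGroup r R)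
    (hxR : x ∈ R) : IsSemiLin ρ n :=
  semilinear_of_normal ρ R (fun a ha b hb => by
    rw [← map_mul, ← map_mul, comm_of_ppd hρ hn hr hR ha hb])
    (fun W hW => irr_x hρ hn hr hx W (hW x hxR)) hn

theorem semi_of_zpowers [Nontrivial V] (hρ : Function.Injective ρ) (hn : Nat.card V = p ^ n)
    (hr : IsPPD p n r) (hx : orderOf x = r) (h : (zpowers x).Normal) : IsSemiLin ρ n :=
  have := Fact.mk hr.1
  semi_of_normal hρ hn hr hx (IsPGroup.of_card (n := 1) (by rw [Nat.card_zpowers, hx, pow_one]))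
    (mem_zpowers x)

theorem semi_of_sq (hρ : Function.Injective ρ) (hG : ¬ p ∣ Nat.card G) (hn0 : 0 < n)
    (hn : Nat.card V = p ^ n) (hr : IsPPD p n r) (h : r ^ 2 ∣ Nat.card G) : IsSemiLin ρ n := by
  have := Fact.mk hr.1
  have := nontrivial_of_card hn0 hn
  obtain ⟨χ, hχ, h1, hf⟩ := exists_char ρ hρ hG
  rw [finrank_eq_of_card hn] at h1
  obtain ⟨P⟩ : Nonempty (Sylow r G) := inferInstance
  have h2 : r ∣ Nat.card G := (dvd_pow_self r two_ne_zero).trans h
  have hc : ∀ a ∈ (P : Subgroup G), ∀ b ∈ (P : Subgroup G), a * b = b * a := fun a ha b hb =>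
    comm_of_ppd hρ hn hr P.isPGroup' ha hb
  have hP := S4485.result r hr.1 h2 P (fun y hy hy1 => ?_) _ P.card_eq_multiplicity χ hχ hf ?_
  · obtain ⟨x, hx⟩ := exists_prime_orderOf_dvd_card' (G := P) r (P.dvd_card_of_dvd_card h2)
    exact semi_of_normal hρ hn hr (by rw [orderOf_coe, hx]) P.isPGroup' x.2
  · refine le_antisymm (fun a ha b hb => ?_) (centralizer_le (Set.singleton_subset_iff.2 hy))
    obtain ⟨k, hk⟩ := IsPGroup.iff_orderOf.1 P.isPGroup' ⟨y, hy⟩
    rw [orderOf_mk] at hk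
    obtain ⟨z, hz⟩ := exists_prime_orderOf_dvd_card' (G := zpowers y) r (by
      rw [Nat.card_zpowers, hk]
      exact dvd_pow_self r fun e => hy1 (orderOf_eq_one_iff.1 (by rw [hk, e, pow_zero])))
    rw [← orderOf_coe] at hz
    obtain ⟨j, hj⟩ := mem_zpowers_iff.1 z.2
    rw [← hj] at hz
    exact comm_x hρ hn hr hz (hc _ (zpow_mem hy j) b hb)
      (Commute.zpow_left (ha y rfl) j)
  · rw [charDegree_eq_of_one_eq h1]
    have h3 := Nat.pow_le_pow_right hr.1.pos
      ((hr.1.pow_dvd_iff_le_factorization Nat.card_pos.ne').1 h)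
    have h4 := Nat.pow_le_pow_left (hr.lt hn0 hp.out.one_lt) 2
    nlinarith

theorem semi_of_large (ht : Trans ρ) (hρ : Function.Injective ρ) (hG : ¬ p ∣ Nat.card G)
    (hn0 : 0 < n) (hn : Nat.card V = p ^ n) (hr : IsPPD p n r) (hnr : n + 2 ≤ r)
    (h : ∀ d ≤ n, ¬ p ∣ d → 2 * d + 1 < r) : IsSemiLin ρ n := by
  have := Fact.mk hr.1
  have := nontrivial_of_card hn0 hn
  by_cases h2 : r ^ 2 ∣ Nat.card G
  · exact semi_of_sq hρ hG hn0 hn hr h2
  obtain ⟨χ, hχ, h1, hf⟩ := exists_char ρ hρ hG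
  rw [finrank_eq_of_card hn] at h1
  obtain ⟨x, hx⟩ := exists_prime_orderOf_dvd_card' (G := G) r (hr.2.1.trans (hn ▸ ht.card_dvd))
  exact semi_of_zpowers hρ hn hr hx (normal_of_char hx h2 hχ hf h1 hnr fun d hd h3 =>
    ⟨h d hd fun e => hG (e.trans h3), Or.inl fun a ha b hb =>
      comm_x hρ hn hr hx (ha x (mem_zpowers x)) (hb x (mem_zpowers x))⟩)

theorem semi_of_six (ht : Trans ρ) (hρ : Function.Injective ρ) (hG : ¬ p ∣ Nat.card G)
    (hn : Nat.card V = p ^ 6) (hr : IsPPD p 6 7) {s : ℕ} (hs : s.Prime) (h1 : s ∣ p ^ 6 - 1)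
    (h2 : ¬ s ^ 2 ∣ p ^ 6 - 1) (h3 : ∀ d < 3, 0 < d → ¬ s ∣ p ^ d - 1) (h4 : ¬ 7 ∣ s - 1) (h5 : 8 ≤ s)
    (h6 : ∀ d ≤ 6, ¬ p ∣ d → 2 * d + 1 < s ∧ Sm s d) : IsSemiLin ρ 6 := by
  have := Fact.mk hr.1
  have := Fact.mk hs
  have := nontrivial_of_card (by norm_num) hn
  by_cases h7 : 7 ^ 2 ∣ Nat.card G
  · exact semi_of_sq hρ hG (by norm_num) hn hr h7
  obtain ⟨χ, hχ, hχ1, hf⟩ := exists_char ρ hρ hG
  rw [finrank_eq_of_card hn] at hχ1
  have hd := hn ▸ ht.card_dvd
  obtain ⟨x, hx⟩ := exists_prime_orderOf_dvd_card' (G := G) 7 (hr.2.1.trans hd)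
  obtain ⟨Q⟩ : Nonempty (Sylow s G) := inferInstance
  have hQ := sylow_normal hχ hf hχ1 h5 (fun d hd h => h6 d hd fun e => hG (e.trans h)) Q
  set Y := (Q : Subgroup G) ⊓ centralizer ((Q : Subgroup G) : Set G)
  have hY : Nat.card Y = s := by
    have h8 := ht.card_dvd_of_abelian hρ (A := Y) (fun a ha b hb => hb.2 a ha.1)
      (fun e => hG (e.trans (card_subgroup_dvd_card _))) ⊤ fun _ _ _ _ => trivial
    rw [card_submodule, finrank_top, finrank_eq_of_card hn] at h8
    have h9 : s ∣ Nat.card Y := prime_dvd_card_center hs Q.isPGroup'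
      (Q.ne_bot_of_dvd_card (h1.trans hd))
    obtain ⟨k, hk⟩ := (Q.isPGroup'.to_le (inf_le_left : Y ≤ _)).exists_card_eq
    rw [hk] at h8 h9 ⊢
    rcases k with _ | _ | k
    · exact absurd (Nat.dvd_one.1 h9) hs.ne_one
    · exact pow_one s
    · exact absurd ((pow_dvd_pow s (by omega)).trans h8) h2
  obtain ⟨y, hy⟩ := exists_prime_orderOf_dvd_card' (G := Y) s hY.symm.dvd
  have hyY : zpowers (y : G) = Y := eq_of_le_of_card_ge (zpowers_le.2 y.2)
    (by rw [Nat.card_zpowers, orderOf_coe, hy, hY])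
  have hC : centralizer ({(y : G)} : Set G) = centralizer (Y : Set G) := by
    rw [← centralizer_closure, ← zpowers_eq_closure, hyY]
  have hcyc : IsCyclic Y := isCyclic_of_prime_card hY
  have hxC : x ∈ centralizer ({(y : G)} : Set G) := hC ▸ mem_centralizer_of_coprime (by
    rw [IsCyclic.card_mulAut, hY, Nat.totient_prime hs, hx]
    exact (Nat.Prime.coprime_iff_not_dvd hr.1).2 h4)
  obtain ⟨d, e, hde, hd', ψ, hψ, hψ1, hf'⟩ := exists_char_cent hρ hG hn (irr_x hρ hn hr hx)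
    (hxC y rfl)
  rw [orderOf_coe, hy] at hd'
  have he : e ≤ 2 := by
    by_contra h
    exact h3 d (by nlinarith) (Nat.pos_of_ne_zero (by rintro rfl; omega)) hd'
  have hN : (centralizer ({(y : G)} : Set G)).Normal := hC ▸ inferInstance
  have h8 : ¬ 7 ^ 2 ∣ Nat.card (centralizer ({(y : G)} : Set G)) := fun h =>
    h7 (h.trans (card_subgroup_dvd_card _))
  refine semi_of_zpowers hρ hn hr hx (normal_of_normal_in hxC hx h8 (normal_of_char
    (by rw [orderOf_mk, hx]) h8 hψ hf' hψ1 (by omega) fun d hd _ => ⟨by omega, Or.inr ?_⟩))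
  have : d ≤ 2 := by omega
  interval_cases d <;> decide

theorem semi_generic (ht : Trans ρ) (hρ : Function.Injective ρ) (hG : ¬ p ∣ Nat.card G)
    (hp2 : p ≠ 2) (hn3 : 3 ≤ n) (hn : Nat.card V = p ^ n) (h34 : ¬ (p = 3 ∧ n = 4)) :
    IsSemiLin ρ n := by
  have h2 := hp.out.two_le
  have := nontrivial_of_card (by omega) hn
  rcases exists_large (q := p) (by omega) hn3 with ⟨r, hr, h | h⟩ | h
  · exact semi_of_large ht hρ hG (by omega) hn hr (by omega) fun d hd _ => by omega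
  · exact semi_of_sq hρ hG (by omega) hn hr (h.trans (hn ▸ ht.card_dvd))
  simp only [List.mem_cons, Prod.mk.injEq, List.not_mem_nil, or_false] at h
  rcases h with ⟨rfl, rfl⟩ | h | ⟨rfl, rfl⟩ | ⟨rfl, rfl⟩ | ⟨rfl, rfl⟩ | ⟨rfl, rfl⟩ | ⟨rfl, rfl⟩ |
    ⟨rfl, rfl⟩
  · exact absurd hp.out (by norm_num)
  · exact absurd h h34
  · exact semi_of_six ht hρ hG hn ⟨by norm_num, by decide, fun k a b => by interval_cases k <;> decide⟩
      (s := 13) (by norm_num) (by decide) (by decide) (by decide) (by decide) (by decide) (by decide)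
  · exact absurd hp.out (by norm_num)
  · exact semi_of_six ht hρ hG hn ⟨by norm_num, by decide, fun k a b => by interval_cases k <;> decide⟩
      (s := 31) (by norm_num) (by decide) (by decide) (by decide) (by decide) (by decide) (by decide)
  · exact absurd hp.out (by norm_num)
  · exact semi_of_six ht hρ hG hn ⟨by norm_num, by decide, fun k a b => by interval_cases k <;> decide⟩
      (s := 307) (by norm_num) (by decide) (by decide) (by decide) (by decide) (by decide) (by decide)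
  · refine semi_of_large ht hρ hG (by omega) hn (r := 37)
      ⟨by norm_num, by decide, fun k a b => by interval_cases k <;> decide⟩ (by omega) fun d hd h => ?_
    omega

end Cfsg.Agent.CTL
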