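import Mathlib
import Cfsg.Agent.CTL.Semi
import Cfsg.Agent.CTL.Count
import Cfsg.Agent.Char.Burnside
import Cfsg.Agent.Grp.PChain
import Cfsg.Agent.S4468

/-! Transitive linear groups of order prime to the characteristic: the space with 81 elements. -/

set_option autoImplicit false
set_option linter.unusedSectionVars false

namespace Cfsg.Agent.CTL

open Module Subgroup Cfsg Cfsg.Agent.Char Cfsg.Agent.Perm.SemiLin Misc.Zsig
open scoped commutatorElement

variable {G : Type*} [Group G] [Finite G]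

theorem cent_le_pCore [Group.IsSolvable G] {r : ℕ} (h : ∀ s : ℕ, s.Prime → pCore s G ≠ ⊥ → s = r) :
    centralizer (pCore r G : Set G) ≤ pCore r G := by
  intro x hx
  refine (?_ : fittingSubgroup G ≤ _) (Grp.centralizer_fitting_le G
    (mem_centralizer_fitting fun s hs h1 => h s hs h1 ▸ hx))
  rw [Grp.fitting_eq_iSup_pCore]
  refine iSup_le fun s => ?_
  by_cases h1 : pCore s G = ⊥
  · rw [h1]; exact bot_le
  · rw [h s s.2 h1]

section
variable {p : ℕ} [hp : Fact p.Prime] {V : Type*} [AddCommGroup V] [Module (ZMod p) V] [Finite V]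
  {ρ : G →* End (ZMod p) V}

theorem neg_of_involution (h : Trans ρ) (hρ : Function.Injective ρ) (hp2 : p ≠ 2)
    {A : Subgroup G} [A.Normal] (hc : ∀ a ∈ A, ∀ b ∈ A, a * b = b * a) {t : G} (ht : t ∈ A)
    (h1 : t ≠ 1) (h2 : t * t = 1) : ρ t = -1 := by
  ext v
  by_contra h0
  refine h1 (h.semireg hρ hc ht (fun e => hp2 ((Nat.prime_dvd_prime_iff_eq hp.out Nat.prime_two).1
    (e.trans (orderOf_dvd_of_pow_eq_one (by rw [sq, h2]))))) (v := ρ t v + v)
    (fun h => h0 (eq_neg_of_add_eq_zero_left h)) ?_)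
  rw [map_add, ← End.mul_apply, ← map_mul, h2, map_one, add_comm]; rfl

/-- A normal nilpotent subgroup is small if all abelian normal subgroups are scalar. -/
theorem card_le_of_scal (hρ : Function.Injective ρ) {n : ℕ} (hn : finrank (ZMod p) V = n)
    (hpn : ¬ p ∣ n) (hA : ∀ A : Subgroup G, A.Normal → (∀ a ∈ A, ∀ b ∈ A, a * b = b * a) → A ≤ scal ρ)
    (T : Subgroup G) [T.Normal] [Group.IsNilpotent T] : (scal ρ).relIndex T ≤ n * n := by
  classical
  have : (T.map (QuotientGroup.mk' (scal ρ))).Normal :=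
    Normal.map inferInstance _ (QuotientGroup.mk'_surjective _)
  let U := T ⊓ (centralizer (T.map (QuotientGroup.mk' (scal ρ)) : Set (G ⧸ scal ρ))).comap
    (QuotientGroup.mk' _)
  have hD : T ⊓ centralizer (U : Set G) ≤ scal ρ := by
    by_contra h
    obtain ⟨u, h1, h2, h3⟩ := Grp.PChain.exists_central_mod ((centralizer (U : Set G)).subgroupOf T)
      ((scal ρ).subgroupOf T) fun e => h fun a ha => e (x := ⟨a, ha.1⟩) ha.2
    refine h2 (hA (U ⊓ centralizer (U : Set G)) inferInstance (fun a ha b hb => hb.2 a ha.1)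
      ⟨⟨u.2, ?_⟩, h1⟩)
    rintro _ ⟨t, ht, rfl⟩
    rw [eq_comm, ← commutatorElement_eq_one_iff_mul_comm, ← map_commutatorElement]
    exact (QuotientGroup.eq_one_iff _).2 (h3 ⟨t, ht⟩)
  have htr : ∀ t ∈ T, t ∉ scal ρ → LinearMap.trace _ _ (ρ t) = 0 := by
    intro t ht h
    by_contra h0
    refine h (hD ⟨ht, fun u hu => ?_⟩)
    have h1 := hu.2 _ ⟨t, ht, rfl⟩
    rw [← map_mul, ← map_mul, QuotientGroup.mk'_eq_mk'] at h1
    obtain ⟨s, ⟨c, hc⟩, hs⟩ := h1
    have h2 : ρ t = c • (ρ u⁻¹ * ρ (t * u)) := by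
      rw [← mul_smul_comm, ← mul_smul_one, ← hc, ← map_mul, hs, ← map_mul, inv_mul_cancel_left]
    have h3 := congrArg (LinearMap.trace _ _) h2
    rw [map_smul, LinearMap.trace_mul_comm, ← map_mul, mul_inv_cancel_right, smul_eq_mul,
      right_eq_mul₀ h0] at h3
    rw [h3, one_smul, ← map_one ρ] at hc
    rw [← hs, hρ hc, mul_one]
  have := Fintype.ofFinite (T ⧸ (scal ρ).subgroupOf T)
  have hli : LinearIndependent (ZMod p) fun q : T ⧸ (scal ρ).subgroupOf T => ρ q.out := by
    refine Fintype.linearIndependent_iff.2 fun c hc q => ?_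
    have h1 := congrArg (fun e => LinearMap.trace _ _ (ρ (q.out : G)⁻¹ * e)) hc
    simp only [Finset.mul_sum, map_sum, mul_smul_comm, map_smul, ← map_mul, mul_zero, map_zero] at h1
    rw [Finset.sum_eq_single q (fun r _ hr => by
      rw [htr _ (mul_mem (inv_mem q.out.2) r.out.2) fun e => hr ?_, smul_zero]
      rw [← q.out_eq', ← r.out_eq', eq_comm, QuotientGroup.eq]
      exact e) (by simp), inv_mul_cancel, map_one, LinearMap.trace_one, hn, smul_eq_mul] at h1
    exact (mul_eq_zero.1 h1).resolve_right (by rwa [ZMod.natCast_eq_zero_iff])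
  have h1 := hli.fintype_card_le_finrank
  rwa [Module.finrank_linearMap, hn, ← Nat.card_eq_fintype_card] at h1

end

variable {V : Type*} [AddCommGroup V] [Module (ZMod 3) V] [Finite V] {ρ : G →* End (ZMod 3) V}

theorem ppd5 : IsPPD 3 4 5 := ⟨by norm_num, by decide, fun k a b => by interval_cases k <;> decide⟩

theorem four_card (ht : Trans ρ) (hρ : Function.Injective ρ) (hG : ¬ 3 ∣ Nat.card G)
    (hn : Nat.card V = 3 ^ 4) : Nat.card G ∣ 2 ^ 9 * 5 ^ 1 := by
  have h1 : Nat.card G ∣ 3 ^ 6 * (13 * (2 ^ 9 * 5 ^ 1)) := by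
    simpa [Fin.prod_univ_succ] using card_dvd_card_GL hρ hn
  have h2 := (((Nat.prime_three.coprime_iff_not_dvd).2 hG).symm.pow_right 6).dvd_of_dvd_mul_left h1
  have f13 : Fact (Nat.Prime 13) := ⟨by norm_num⟩
  refine ((f13.out.coprime_iff_not_dvd).2 fun h => ?_).symm.dvd_of_dvd_mul_left h2
  obtain ⟨χ, hχ, h3, hf⟩ := exists_char ρ hρ hG
  rw [finrank_eq_of_card hn] at h3
  obtain ⟨y, hy⟩ := exists_prime_orderOf_dvd_card' (G := G) 13 h
  have := normal_of_char hy (fun e => by simpa using e.trans h2) hχ hf h3 (by norm_num)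
    fun d hd _ => ⟨by omega, Or.inr (by interval_cases d <;> decide)⟩
  have h4 := ht.card_dvd_of_abelian hρ (A := zpowers y) (fun a ⟨i, hi⟩ b ⟨j, hj⟩ => by
    rw [← hi, ← hj]; exact zpow_mul_comm y i j) (by rw [Nat.card_zpowers, hy]; norm_num) ⊤
    fun _ _ _ _ => trivial
  rw [card_submodule, finrank_top, finrank_eq_of_card hn, Nat.card_zpowers, hy] at h4
  norm_num at h4

theorem four_scal (ht : Trans ρ) (hρ : Function.Injective ρ) (hG : ¬ 3 ∣ Nat.card G)
    (hn : Nat.card V = 3 ^ 4) (hs : ¬ IsSemiLin ρ 4) (A : Subgroup G) (hA : A.Normal)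
    (hc : ∀ a ∈ A, ∀ b ∈ A, a * b = b * a) : A ≤ scal ρ := by
  have := nontrivial_of_card (by norm_num) hn
  have f5 : Fact (Nat.Prime 5) := ⟨by norm_num⟩
  have hd := four_card ht hρ hG hn
  have := isSolvable_of_card_dvd_pow_mul_pow Nat.prime_two f5.out G hd
  have h25 : ∀ C : Subgroup G, ¬ 5 ^ 2 ∣ Nat.card C := fun C e => by
    simpa using (e.trans (card_subgroup_dvd_card C)).trans hd
  have h1 : Nat.card A ∣ 2 ^ 9 := by
    refine ((f5.out.coprime_iff_not_dvd).2 fun h => ?_).symm.dvd_of_dvd_mul_right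
      ((card_subgroup_dvd_card A).trans hd)
    obtain ⟨x, hx⟩ := exists_prime_orderOf_dvd_card' (G := A) 5 h
    rw [← orderOf_coe] at hx
    exact hs (semi_of_zpowers hρ hn ppd5 hx (normal_of_normal_in x.2 hx (h25 A) ⟨fun a ha g => by
      rwa [show g * a = a * g from Subtype.ext (hc g g.2 a a.2), mul_inv_cancel_right]⟩))
  have hneg : ∀ t ∈ A, t * t = 1 → t = 1 ∨ ρ t = -1 := fun t h h2 =>
    or_iff_not_imp_left.2 fun h3 => neg_of_involution ht hρ (by norm_num) hc h h3 h2
  intro a ha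
  by_cases h2 : a * a = 1
  · rcases hneg a ha h2 with rfl | h
    · exact one_mem _
    · exact ⟨-1, by simp [h]⟩
  exfalso
  obtain ⟨k, -, hk⟩ := (Nat.dvd_prime_pow Nat.prime_two).1 ((orderOf_dvd_natCard A ha).trans h1)
  obtain ⟨k, rfl⟩ : ∃ j, k = j + 2 := by
    rcases k with _ | _ | k
    · exact absurd (by simp [orderOf_eq_one_iff.1 hk]) h2
    · exact absurd (by rw [← sq, ← pow_one 2, ← hk, pow_orderOf_eq_one]) h2
    · exact ⟨k, rfl⟩
  have hi : orderOf (a ^ 2 ^ k) = 4 := by
    rw [orderOf_pow_of_dvd (by positivity) (hk ▸ pow_dvd_pow 2 (by omega)), hk, pow_add,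
      Nat.mul_div_cancel_left _ (by positivity)]
    norm_num
  have hiA : a ^ 2 ^ k ∈ A := pow_mem ha _
  generalize a ^ 2 ^ k = i at hi hiA
  have hsq : ∀ j ∈ A, orderOf j = 4 → ρ (j * j) = -1 := fun j hj h =>
    (hneg _ (mul_mem hj hj) (by
      rw [← pow_orderOf_eq_one j, h]; simp only [pow_succ, pow_zero, one_mul, mul_assoc])).resolve_left
      fun e => by simpa [h] using orderOf_dvd_of_pow_eq_one ((sq j).trans e)
  have hN : (zpowers i).Normal := ⟨fun _ ⟨m, hm⟩ g => by
    have h3 := hA.conj_mem i hiA g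
    have h4 := hρ ((hsq _ h3 (by rw [Block.orderOf_conj_eq, hi])).trans (hsq i hiA hi).symm)
    have h5 : g * i * g⁻¹ ∈ zpowers i := by
      generalize g * i * g⁻¹ = j at h3 h4
      rcases hneg _ (mul_mem h3 (inv_mem hiA)) (by
        rw [mul_assoc, ← mul_assoc i⁻¹, hc _ (inv_mem hiA) j h3, mul_assoc, ← mul_assoc, h4]
        group) with h | h
      · rw [mul_inv_eq_one.1 h]; exact mem_zpowers i
      · rw [mul_inv_eq_iff_eq_mul.1 (hρ (h.trans (hsq i hiA hi).symm))]
        exact mul_mem (mul_mem (mem_zpowers i) (mem_zpowers i)) (mem_zpowers i)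
    rw [← hm, ← conj_zpow]
    exact zpow_mem h5 m⟩
  obtain ⟨x, hx⟩ := exists_prime_orderOf_dvd_card' (G := G) 5 (ppd5.2.1.trans (hn ▸ ht.card_dvd))
  have hC : centralizer ({i} : Set G) = centralizer (zpowers i : Set G) := by
    rw [← centralizer_closure, ← zpowers_eq_closure]
  have hxC : x ∈ centralizer ({i} : Set G) := hC ▸ mem_centralizer_of_coprime (by
    rw [IsCyclic.card_mulAut, Nat.card_zpowers, hi, hx]; decide)
  obtain ⟨d, e, hde, hd', ψ, hψ, hψ1, hf'⟩ := exists_char_cent hρ hG hn (irr_x hρ hn ppd5 hx)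
    (hxC i rfl)
  rw [hi] at hd'
  have he : e ≤ 2 := by
    by_contra h
    have h3 : d < 2 := by nlinarith
    interval_cases d <;> omega
  have hN' : (centralizer ({i} : Set G)).Normal := hC ▸ inferInstance
  obtain ⟨P, hP⟩ := ModSl2.exists_sylow_eq (x := (⟨x, hxC⟩ : centralizer ({i} : Set G)))
    (by rw [orderOf_mk, hx]) (h25 _)
  refine hs (semi_of_zpowers hρ hn ppd5 hx (normal_of_normal_in hxC hx (h25 _) ?_))
  by_contra h
  have := (S4468.result ψ hψ hf' e (charDegree_eq_of_one_eq hψ1) 5 f5.out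
    PLocal.isPSolvable_of_isSolvable (by omega) P (hP ▸ h)).1
  omega

theorem dim_four (ht : Trans ρ) (hρ : Function.Injective ρ) (hG : ¬ 3 ∣ Nat.card G)
    (hn : Nat.card V = 3 ^ 4) {h : ℕ} (hh : Nat.card G = (3 ^ 4 - 1) * h) :
    IsSemiLin ρ 4 ∨ Nat.card (ConjClasses G) + h < 3 ^ 4 := by
  rw [or_iff_not_imp_left]
  intro hs
  have := nontrivial_of_card (by norm_num) hn
  have f5 : Fact (Nat.Prime 5) := ⟨by norm_num⟩
  have hd := four_card ht hρ hG hn
  have := isSolvable_of_card_dvd_pow_mul_pow Nat.prime_two f5.out G hd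
  have hA := four_scal ht hρ hG hn hs
  have hS : Nat.card (scal ρ) ∣ 2 := card_scal_dvd hρ
  set T := pCore 2 G
  have hT : IsPGroup 2 T := Grp.pCore_isPGroup 2 G
  have hCT : centralizer (T : Set G) ≤ T := cent_le_pCore fun s hs h1 => by
    have := Fact.mk hs
    exact (Nat.prime_dvd_prime_iff_eq hs Nat.prime_two).1
      (((prime_dvd_card_center hs (Grp.pCore_isPGroup s G) h1).trans (card_dvd_of_le
        (hA _ inferInstance fun a ha b hb => hb.2 a ha.1))).trans hS)
  have h32 : Nat.card T ≤ 32 := by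
    have := hT.isNilpotent
    have h1 := card_le_of_scal hρ (finrank_eq_of_card hn) (by norm_num) hA T
    have h2 := ((scal ρ).subgroupOf T).index_mul_card
    have h3 : Nat.card ((scal ρ).subgroupOf T) ≤ 2 := by
      rw [← inf_subgroupOf_right, Nat.card_congr (subgroupOfEquivOfLe inf_le_right).toEquiv]
      exact (card_le_of_le inf_le_left).trans (Nat.le_of_dvd two_pos hS)
    exact h2 ▸ Nat.mul_le_mul h1 h3
  have h5 : ∀ y : G, orderOf y = 5 → Nat.card ↥(T ⊓ centralizer (zpowers y : Set G)) ≤ 2 := by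
    intro y hy
    have hX : IsPGroup 5 (zpowers y) :=
      IsPGroup.of_card (n := 1) (by rw [Nat.card_zpowers, hy, pow_one])
    have h2 : Nat.card T ≡ Nat.card ↥(T ⊓ centralizer (zpowers y : Set G)) [MOD 5] :=
      Block.card_modEq_card_centralizer hX (fun y => y ∈ T) fun u _ y hy =>
        Normal.conj_mem inferInstance y hy u
    obtain ⟨i, hi⟩ := hT.exists_card_eq
    obtain ⟨j, hj⟩ := (hT.to_le
      (inf_le_left : T ⊓ centralizer (zpowers y : Set G) ≤ _)).exists_card_eq
    have h3 : i < 6 := (Nat.pow_lt_pow_iff_right one_lt_two).1 (by omega)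
    have h4 : j < i := (Nat.pow_lt_pow_iff_right one_lt_two).1 (by
      rw [← hi, ← hj]
      by_contra h6
      have h7 := eq_of_le_of_card_ge
        (inf_le_left : T ⊓ centralizer (zpowers y : Set G) ≤ _) (not_lt.1 h6)
      have h8 := orderOf_dvd_natCard T (hCT (le_centralizer_iff.1 (h7 ▸ inf_le_right)
        (mem_zpowers y)))
      rw [hi, hy] at h8
      exact absurd (f5.out.dvd_of_dvd_pow h8) (by norm_num))
    rw [hi, hj] at h2
    rw [hj]
    clear * - h2 h3 h4
    interval_cases i <;> interval_cases j <;> simp_all [Nat.ModEq]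
  have hq := (card_quotient_dvd_card T).trans hd
  set M := pCore 5 (G ⧸ T)
  have hCM : centralizer (M : Set (G ⧸ T)) ≤ M := cent_le_pCore fun s hs h1 => by
    have := Fact.mk hs
    have h2 := (((prime_dvd_card_center hs (Grp.pCore_isPGroup s _) h1).trans
      (card_subgroup_dvd_card _))).trans hq
    rcases (Nat.Prime.dvd_mul hs).1 h2 with h3 | h3
    · rw [(Nat.prime_dvd_prime_iff_eq hs Nat.prime_two).1 (hs.dvd_of_dvd_pow h3)] at h1
      exact absurd (Grp.pCore_quotient_pCore 2 G) h1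
    · exact (Nat.prime_dvd_prime_iff_eq hs f5.out).1 (hs.dvd_of_dvd_pow h3)
  have hGT := card_eq_card_quotient_mul_card_subgroup T
  have h0 : 0 < h := Nat.pos_of_ne_zero (by rintro rfl; exact Nat.card_pos.ne' hh)
  have hM : Nat.card M = 5 := by
    obtain ⟨k, hk⟩ := (Grp.pCore_isPGroup 5 (G ⧸ T)).exists_card_eq
    rcases k with _ | _ | k
    · have h1 : M = ⊥ := card_eq_one.1 hk
      rw [h1, coe_bot, centralizer_eq_top_iff_subset.2 (by simp)] at hCM
      have h2 := card_le_of_le hCM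
      rw [card_top, card_bot] at h2
      have := Nat.mul_le_mul h2 h32
      omega
    · exact hk
    · have := ((pow_dvd_pow 5 (show 2 ≤ k + 1 + 1 by omega)).trans
        (hk ▸ card_subgroup_dvd_card _)).trans hq
      norm_num at this
  have h20 : Nat.card (G ⧸ T) ≤ 20 := by
    have h1 := card_dvd_centralizer_mul M
    have := isCyclic_of_prime_card hM
    rw [IsCyclic.card_mulAut, hM, Nat.totient_prime f5.out] at h1
    have h2 := card_le_of_le hCM
    have := Nat.le_of_dvd (Nat.mul_pos Nat.card_pos (by norm_num)) h1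
    omega
  let L := M.comap (QuotientGroup.mk' T)
  have hL : L.index ≤ 4 := by
    have := M.index_mul_card
    rw [hM] at this
    rw [index_comap_of_surjective _ (QuotientGroup.mk'_surjective _)]
    omega
  have hTL : T ≤ L := fun t ht => by
    rw [mem_comap, QuotientGroup.mk'_apply, (QuotientGroup.eq_one_iff t).2 ht]; exact one_mem _
  have hi : (T.subgroupOf L).index = 5 := by
    have := relIndex_comap ⊥ (QuotientGroup.mk' T) L
    rwa [map_comap_eq_self_of_surjective (QuotientGroup.mk'_surjective _), relIndex_bot_left,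
      MonoidHom.comap_bot, QuotientGroup.ker_mk', hM] at this
  have h6 := conj_mul_index_le (T.subgroupOf L) (u := 2) fun x hx => by
    have h1 : 5 ∣ orderOf (x : G) := by
      have h2 := orderOf_dvd_natCard M x.2
      rw [hM] at h2
      rw [← ((Nat.dvd_prime f5.out).1 h2).resolve_left fun e =>
        hx ((QuotientGroup.eq_one_iff (x : G)).1 (orderOf_eq_one_iff.1 e))]
      exact orderOf_map_dvd _ _
    obtain ⟨y, hy⟩ := exists_prime_orderOf_dvd_card' (G := zpowers (x : G)) 5
      (by rwa [Nat.card_zpowers])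
    rw [← orderOf_coe] at hy
    obtain ⟨j, hj⟩ := mem_zpowers_iff.1 y.2
    have h3 : ∀ g : ↥(centralizer ({x} : Set L) ⊓ T.subgroupOf L),
        g.1.1 ∈ T ⊓ centralizer (zpowers (y : G) : Set G) := fun g => ⟨g.2.2, fun _ ⟨m, hm⟩ => by
      rw [← hm, ← hj]
      exact ((Commute.zpow_left (congrArg Subtype.val (g.2.1 x rfl)) j).zpow_left m).eq⟩
    exact le_trans (Nat.card_le_card_of_injective (fun g => ⟨_, h3 g⟩)
      fun a b e => Subtype.ext (Subtype.ext (Subtype.mk.inj e))) (h5 y hy)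
  rw [hi, Nat.card_congr (subgroupOfEquivOfLe hTL).toEquiv] at h6
  have h7 := (S4200.result L).2.1.trans (Nat.mul_le_mul_right _ hL)
  have h8 := Nat.mul_le_mul h20 h32
  omega

end Cfsg.Agent.CTL
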