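import Mathlib
import Cfsg.Agent.CTL.Four

/-! Lower bounds for class numbers of transitive linear groups of order prime to `p`. -/

set_option autoImplicit false
set_option linter.unusedSectionVars false

namespace Cfsg.Agent.CTL

open Module Subgroup Cfsg Cfsg.Agent.Char Cfsg.Agent.Perm.SemiLin

variable {G : Type*} [Group G] [Finite G]

theorem lower_abelian (A : Subgroup G) (hc : ∀ a ∈ A, ∀ b ∈ A, a * b = b * a) (hA : A ≠ ⊤) :
    Nat.card A < Nat.card (ConjClasses G) * A.index := by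
  classical
  have := Fintype.ofFinite G
  have h1 := KSG.card_conjClasses_mul_card_eq_sum (G := G)
  have hA' : (Finset.univ.filter (· ∈ A)).card = Nat.card A := by
    rw [Nat.card_eq_fintype_card, Fintype.card_subtype]
  obtain ⟨x, hx⟩ := not_forall.1 (mt (eq_top_iff' A).2 hA)
  have h2 := Finset.card_nsmul_le_sum (Finset.univ.filter (· ∈ A))
    (fun g => Nat.card (centralizer ({g} : Set G))) (Nat.card A) fun g hg =>
      card_le_of_le fun a ha => mem_centralizer_singleton_iff.2 (hc a ha g (Finset.mem_filter.1 hg).2)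
  have h3 := Finset.sum_lt_sum_of_subset (Finset.subset_univ (Finset.univ.filter (· ∈ A)))
    (f := fun g => Nat.card (centralizer ({g} : Set G))) (Finset.mem_univ x) (by simpa using hx)
    Nat.card_pos fun _ _ _ => Nat.zero_le _
  rw [← h1, ← A.index_mul_card, ← mul_assoc] at h3
  rw [hA', smul_eq_mul] at h2
  exact Nat.lt_of_mul_lt_mul_right (h2.trans_lt h3)

theorem lower_central {Q : Type*} [Group Q] [Fintype Q] [DecidableEq Q] (Z : Subgroup G) [Z.Normal]
    (hZ : Z ≤ center G) (e : G ⧸ Z ≃* Q) {s : ℕ}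
    (hs : ∑ q : Q, (if q = 1 then Fintype.card Q else if q * q = 1 then 2 else 3) = s) :
    Nat.card Z * s ≤ Nat.card (ConjClasses G) * Nat.card Q := by
  classical
  have := Fintype.ofFinite G
  have h1 := KSG.card_conjClasses_mul_card_eq_sum (G := G)
  have h2 := card_eq_card_quotient_mul_card_subgroup Z
  let F : G ⧸ Z → ℕ := fun q => if e q = 1 then Fintype.card Q else if e q * e q = 1 then 2 else 3
  have h3 : ∀ g : G, Nat.card Z * F g ≤ Nat.card (centralizer ({g} : Set G)) := fun g => by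
    by_cases h : e g = 1
    · rw [centralizer_eq_top_iff_subset.2 (Set.singleton_subset_iff.2 (hZ
        ((QuotientGroup.eq_one_iff g).1 ((map_eq_one_iff e e.injective).1 h)))), card_top, h2,
        Nat.card_congr e.toEquiv, mul_comm]
      simp only [F, h, if_true, Nat.card_eq_fintype_card (α := Q), le_refl]
    have h4 : (zpowers (g : G ⧸ Z)).comap (QuotientGroup.mk' Z) ≤ centralizer {g} := by
      rintro a ⟨i, hi⟩
      simp only [← QuotientGroup.mk'_apply, ← map_zpow, QuotientGroup.mk'_eq_mk'] at hi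
      obtain ⟨z, hz, rfl⟩ := hi
      exact mem_centralizer_singleton_iff.2 (((Commute.refl g).zpow_left i).mul_left
        (mem_center_iff.1 (hZ hz) g).symm)
    refine le_trans ?_ (card_le_of_le h4)
    have h5 := ((zpowers (g : G ⧸ Z)).comap (QuotientGroup.mk' Z)).index_mul_card
    rw [index_comap_of_surjective _ (QuotientGroup.mk'_surjective _), h2,
      ← (zpowers (g : G ⧸ Z)).index_mul_card, mul_assoc,
      mul_right_inj' index_ne_zero_of_finite, Nat.card_zpowers] at h5
    rw [h5, mul_comm, ← e.orderOf_eq]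
    refine Nat.mul_le_mul_right _ ?_
    have h6 := orderOf_pos (e g)
    have h7 := mt orderOf_eq_one_iff.1 h
    simp only [F, h, if_false]
    split_ifs with h8
    · omega
    · have : orderOf (e g) ≠ 2 := fun h9 => h8 (by rw [← sq, ← h9, pow_orderOf_eq_one])
      omega
  have h4 : ∑ g : G, F g = s * Nat.card Z := by
    have h5 : Function.Bijective fun x : (G ⧸ Z) × Z => x.1.out * x.2 :=
      (Nat.bijective_iff_injective_and_card _).2 ⟨fun x y h => by
        have h6 : x.1 = y.1 := by simpa using congrArg (QuotientGroup.mk (s := Z)) h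
        exact Prod.ext h6 (Subtype.ext (by simpa [h6] using h)), by rw [Nat.card_prod, h2]⟩
    rw [← hs, ← h5.sum_comp, Fintype.sum_prod_type, ← e.toEquiv.sum_comp, Finset.sum_mul]
    simp [F, mul_comm]
  have h5 := Finset.sum_le_sum fun g (_ : g ∈ Finset.univ) => h3 g
  rw [← h1, ← Finset.mul_sum, h4, h2, Nat.card_congr e.toEquiv, ← mul_assoc, ← mul_assoc] at h5
  exact Nat.le_of_mul_le_mul_right h5 Nat.card_pos

theorem three_le_conj {a b : G} (ha : orderOf a = 2) (hb : orderOf b = 5) :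
    3 ≤ Nat.card (ConjClasses G) := by
  classical
  have := Fintype.ofFinite (ConjClasses G)
  have h : ∀ x y : G, orderOf x ≠ orderOf y → ConjClasses.mk x ≠ ConjClasses.mk y := fun x y h e => by
    obtain ⟨g, rfl⟩ := isConj_iff.1 (ConjClasses.mk_eq_mk_iff_isConj.1 e)
    exact h (Block.orderOf_conj_eq g x).symm
  rw [Nat.card_eq_fintype_card, ← Finset.card_eq_three.2 ⟨_, _, _, h 1 a (by simp [ha]),
    h 1 b (by simp [hb]), h a b (by omega), rfl⟩]
  exact Finset.card_le_univ _

theorem card_conj_quot_le (Z : Subgroup G) [Z.Normal] :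
    Nat.card (ConjClasses (G ⧸ Z)) ≤ Nat.card (ConjClasses G) :=
  Nat.card_le_card_of_surjective _ (ConjClasses.map_surjective (QuotientGroup.mk'_surjective Z))

theorem card_conj_S4' : Nat.card (ConjClasses (Equiv.Perm (Fin 4))) = 5 := by
  have h := card_comm_eq_card_conjClasses_mul_card (Equiv.Perm (Fin 4))
  have h2 : Fintype.card {p : Equiv.Perm (Fin 4) × Equiv.Perm (Fin 4) // p.1 * p.2 = p.2 * p.1} =
    120 := by decide +kernel
  rw [← Nat.card_eq_fintype_card] at h2
  rw [card_conj_S4.2] at h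
  have h3 : 120 = Nat.card (ConjClasses (Equiv.Perm (Fin 4))) * 24 := h2.symm.trans h
  omega

theorem ineq_c {p n : ℕ} (hp : 2 ≤ p) (hn : 2 ≤ n) : p * n ^ 2 + 1 ≤ (p + 1) ^ n := by
  induction n, hn using Nat.le_induction with
  | base => nlinarith
  | succ n hn ih =>
    have h1 : (n + 1) ^ 2 ≤ 3 * n ^ 2 := by nlinarith
    have h2 := Nat.mul_le_mul_left p h1
    have h3 := Nat.mul_le_mul ih (show 3 ≤ p + 1 by omega)
    rw [pow_succ (p + 1)]
    nlinarith

variable {p : ℕ} [hp : Fact p.Prime] {V : Type*} [AddCommGroup V] [Module (ZMod p) V] [Finite V]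
  {ρ : G →* End (ZMod p) V}

theorem semi_abelian (hρ : Function.Injective ρ) {n : ℕ} (hn0 : 0 < n) (hs : IsSemiLin ρ n) :
    ∃ A : Subgroup G, (∀ a ∈ A, ∀ b ∈ A, a * b = b * a) ∧ A.index ≤ n := by
  obtain ⟨f, hf⟩ := hs
  choose a σ ha hf using hf
  have hmul : ∀ g k w, a (g * k) * σ (g * k) w = a g * σ g (a k) * σ g (σ k w) := fun g k w => by
    obtain ⟨v, rfl⟩ := f.surjective w
    rw [← hf, map_mul, End.mul_apply, hf, hf, map_mul, mul_assoc]
  have hma : ∀ g k, a (g * k) = a g * σ g (a k) := fun g k => by simpa using hmul g k 1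
  let τ : G →* (GaloisField p n ≃ₐ[ZMod p] GaloisField p n) := MonoidHom.mk'
    (fun g => AlgEquiv.ofRingEquiv (f := σ g) fun x => by
      rw [← ZMod.natCast_zmod_val x, map_natCast, map_natCast])
    fun g k => AlgEquiv.ext fun w => mul_left_cancel₀ (ha _) ((hmul g k w).trans (by rw [hma]; rfl))
  have hτ : ∀ g ∈ τ.ker, ∀ w, σ g w = w := fun g hg w => AlgEquiv.congr_fun hg w
  refine ⟨τ.ker, fun g hg k hk => hρ (LinearMap.ext fun v => f.injective ?_), Nat.le_of_dvd hn0 ?_⟩
  · rw [map_mul, map_mul, End.mul_apply, End.mul_apply, hf, hf, hf, hf, hτ g hg, hτ k hk, hτ k hk,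
      hτ g hg, mul_left_comm]
  · rw [index_ker]
    exact (card_subgroup_dvd_card _).trans (by
      rw [IsGalois.card_aut_eq_finrank, GaloisField.finrank p hn0.ne'])

theorem lower_semi (ht : Trans ρ) (hρ : Function.Injective ρ) (hp2 : p ≠ 2) {n : ℕ} (hn2 : 2 ≤ n)
    (hn : Nat.card V = p ^ n) (hs : IsSemiLin ρ n) : p ≤ Nat.card (ConjClasses G) := by
  have := nontrivial_of_card (by omega) hn
  obtain ⟨A, hc, hA⟩ := semi_abelian hρ (by omega) hs
  have h1 := Nat.le_of_dvd Nat.card_pos (hn ▸ ht.card_dvd)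
  have h2 := hp.out.two_le
  obtain ⟨t, rfl⟩ : ∃ t, p = t + 1 := ⟨p - 1, by omega⟩
  have h3 := ineq_c (show 2 ≤ t by omega) hn2
  by_cases h4 : A = ⊤
  · subst h4
    have : Nat.card G ≤ Nat.card (ConjClasses G) := Nat.card_le_card_of_injective ConjClasses.mk
      fun a b e => by
        obtain ⟨g, rfl⟩ := isConj_iff.1 (ConjClasses.mk_eq_mk_iff_isConj.1 e)
        rw [hc g trivial a trivial, mul_inv_cancel_right]
    have h5 := Nat.mul_le_mul_left t (Nat.pow_le_pow_left hn2 2)
    omega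
  by_contra h5
  have h6 := Nat.mul_lt_mul_of_pos_left (lower_abelian A hc h4)
    (Nat.pos_of_ne_zero A.index_ne_zero_of_finite)
  have h7 := Nat.mul_le_mul hA (Nat.mul_le_mul (show Nat.card (ConjClasses G) ≤ t by omega) hA)
  rw [A.index_mul_card] at h6
  have h8 : n * (t * n) = t * n ^ 2 := by ring
  omega

theorem lower_two (ht : Trans ρ) (hρ : Function.Injective ρ) (hG : ¬ p ∣ Nat.card G) (hp2 : p ≠ 2)
    (hn : Nat.card V = p ^ 2) : p ≤ Nat.card (ConjClasses G) ∨
      (p = 11 ∧ Nat.card G = 120 ∧ ¬ Group.IsSolvable G) := by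
  by_cases hs : IsSemiLin ρ 2
  · exact Or.inl (lower_semi ht hρ hp2 le_rfl hn hs)
  have := nontrivial_of_card two_pos hn
  obtain ⟨χ, hχ, h1, hf⟩ := exists_char ρ hρ hG
  rw [finrank_eq_of_card hn] at h1
  obtain ⟨h, hh⟩ := hn ▸ ht.card_dvd
  have h2 := hp.out.two_le
  have h3 := card_scal_dvd hρ
  have hZ : scal ρ ≤ center G := fun z ⟨c, hc⟩ => mem_center_iff.2 fun g => hρ (by
    rw [map_mul, map_mul, hc, mul_smul_comm, smul_mul_assoc, mul_one, one_mul])
  have hp' := hp.out
  obtain ⟨t, rfl⟩ : ∃ t, p = t + 1 := ⟨p - 1, by omega⟩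
  rw [show (t + 1) ^ 2 - 1 = t * (t + 2) from Nat.sub_eq_of_eq_add (by ring)] at hh
  rw [Nat.add_sub_cancel] at h3
  have h0 : 0 < h := Nat.pos_of_ne_zero (by rintro rfl; exact Nat.card_pos.ne' hh)
  rcases deg_two hχ h1 hf (scal ρ) fun A _ hA => by
    by_contra h4
    exact hs (ht.isSemiLin_of_nonscalar hn (fun a ha b hb => by
      rw [← map_mul, ← map_mul, hA a ha b hb]) h4) with h4 | ⟨Z, _, h4, h5⟩
  · have h5 := (scal ρ).index_mul_card
    have h6 := Nat.mul_le_mul h4 (Nat.le_of_dvd (by omega) h3)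
    have : t * (t + 2) ≤ t * (t + 2) * h := Nat.le_mul_of_pos_right _ h0
    nlinarith
  obtain ⟨u, hu⟩ := (card_dvd_of_le h4).trans h3
  have h8 := card_eq_card_quotient_mul_card_subgroup Z
  have h12 : ¬ t + 1 ∣ Nat.card (G ⧸ Z) := fun h => hG (h.trans (card_quotient_dvd_card Z))
  have h13 : Nat.card (G ⧸ Z) = u * ((t + 2) * h) := by
    refine Nat.eq_of_mul_eq_mul_right (Nat.card_pos (α := Z)) ?_
    rw [← h8, hh, mul_comm _ (Nat.card Z), ← mul_assoc, ← hu, mul_assoc]
  have h14 := card_conj_quot_le Z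
  have h15 : 0 < u := Nat.pos_of_ne_zero (by rintro rfl; omega)
  have h17 : t % 2 = 0 := by have := hp'.eq_two_or_odd; omega
  have h16 := Nat.mul_le_mul h15 (Nat.mul_le_mul_left (t + 2) h0)
  have h18 := Nat.mul_le_mul_left u (Nat.mul_le_mul (show 4 ≤ t + 2 by omega) h0)
  rw [← h13] at h16 h18
  rcases h5 with ⟨⟨e⟩⟩ | ⟨⟨e⟩⟩ | ⟨⟨e⟩⟩
  · have h6 := lower_central Z (h4.trans hZ) e (s := 42) (by decide +kernel)
    rw [Nat.card_congr e.toEquiv] at h8 h12 h13 h16 h18
    rw [card_conj_A4.2] at h6 h8 h12 h13 h16 h18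
    have h7 : t ≤ 10 := by omega
    have h9 : u ≤ 3 := by omega
    left
    clear * - h6 h7 h9 h12 h13 h17 hu h2
    interval_cases t <;> interval_cases u <;> omega
  · have h6 := lower_central Z (h4.trans hZ) e (s := 84) (by decide +kernel)
    rw [Nat.card_congr e.toEquiv] at h8 h12 h13 h16 h18
    rw [card_conj_S4.2] at h6 h8 h12 h13 h16 h18
    rw [Class.FG.card_conjClasses_congr e, card_conj_S4'] at h14
    have h7 : t ≤ 22 := by omega
    have h9 : u ≤ 6 := by omega
    left
    clear * - h6 h7 h9 h12 h13 h14 h17 hu h2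
    interval_cases t <;> interval_cases u <;> omega
  · have h6 := lower_central Z (h4.trans hZ) e (s := 222) (by decide +kernel)
    rw [Nat.card_congr e.toEquiv] at h8 h12 h13 h16 h18
    rw [card_conj_A5.2] at h6 h8 h12 h13 h16 h18
    have h7 : t ≤ 58 := by omega
    have h9 : u ≤ 15 := by omega
    have h10 : t + 1 ≤ Nat.card (ConjClasses G) ∨ (t + 1 = 11 ∧ Nat.card G = 120) := by
      clear * - h6 h7 h8 h9 h12 h13 h17 hu h2
      interval_cases t <;> interval_cases u <;> omega
    refine h10.imp_right fun h11 => ⟨h11.1, h11.2, fun _ => ?_⟩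
    have := Group.isSolvable_of_surjective (f := e.toMonoidHom.comp (QuotientGroup.mk' Z))
      (e.surjective.comp (QuotientGroup.mk'_surjective Z))
    exact absurd (IsSimpleGroup.comm_iff_isSolvable.2 this) (by decide +kernel)

theorem lower (ht : Trans ρ) (hρ : Function.Injective ρ) (hG : ¬ p ∣ Nat.card G) {n : ℕ}
    (hn2 : 2 ≤ n) (hn : Nat.card V = p ^ n) : p ≤ Nat.card (ConjClasses G) ∨
      (p = 11 ∧ n = 2 ∧ Nat.card G = 120 ∧ ¬ Group.IsSolvable G) := by
  have := nontrivial_of_card (by omega) hn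
  have hd := hn ▸ ht.card_dvd
  by_cases hp2 : p = 2
  · subst hp2
    have h1 := Nat.le_of_dvd Nat.card_pos hd
    have h2 := Nat.pow_le_pow_right two_pos hn2
    have : Nontrivial G := Finite.one_lt_card_iff_nontrivial.1 (by omega)
    obtain ⟨g, hg⟩ := exists_ne (1 : G)
    have : Nontrivial (ConjClasses G) := ⟨_, _, fun e =>
      hg (isConj_one_left.1 (ConjClasses.mk_eq_mk_iff_isConj.1 e))⟩
    exact Or.inl Finite.one_lt_card
  by_cases h2 : n = 2
  · subst h2
    exact (lower_two ht hρ hG hp2 hn).imp_right fun h => ⟨h.1, rfl, h.2⟩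
  by_cases h3 : p = 3 ∧ n = 4
  · obtain ⟨rfl, rfl⟩ := h3
    have f5 : Fact (Nat.Prime 5) := ⟨by norm_num⟩
    obtain ⟨a, ha⟩ := exists_prime_orderOf_dvd_card' (G := G) 2 ((by norm_num : 2 ∣ _).trans hd)
    obtain ⟨b, hb⟩ := exists_prime_orderOf_dvd_card' (G := G) 5 ((by norm_num : 5 ∣ _).trans hd)
    exact Or.inl (three_le_conj ha hb)
  exact Or.inl (lower_semi ht hρ hp2 hn2 hn (semi_generic ht hρ hG hp2 (by omega) hn h3))

end Cfsg.Agent.CTL
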